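import Mathlib

set_option autoImplicit false

namespace Cfsg.Agent.Helper13

open Module Polynomial

section finquad
variable {F V : Type*} [Field F] [AddCommGroup V] [Module F V]

theorem ringChar_ne_two_of_two_ne_zero (h2 : (2 : F) ≠ 0) : ringChar F ≠ 2 := by
  intro h
  apply h2
  have := CharP.cast_eq_zero F (ringChar F)
  rw [h] at this
  exact_mod_cast this

/-- over a finite field of odd characteristic, `a x² + b y² = 1` is solvable. -/
theorem exists_sq_add_sq_eq_one [Finite F] (h2 : (2 : F) ≠ 0) {a b : F} (ha : a ≠ 0) (hb : b ≠ 0) :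
    ∃ x y : F, a * x ^ 2 + b * y ^ 2 = 1 := by
  classical
  letI : Fintype F := Fintype.ofFinite F
  have hodd : Fintype.card F % 2 = 1 :=
    FiniteField.odd_card_of_char_ne_two (ringChar_ne_two_of_two_ne_zero h2)
  have hf : (C a * X ^ 2 - 1 : F[X]).degree = 2 := by
    have : (C a * X ^ 2 - 1 : F[X]) = C a * X ^ 2 + C 0 * X + C (-1) := by
      simp [sub_eq_add_neg]
    rw [this, degree_quadratic ha]
  have hg : (C b * X ^ 2 : F[X]).degree = 2 := by
    have : (C b * X ^ 2 : F[X]) = C b * X ^ 2 + C 0 * X + C 0 := by simp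
    rw [this, degree_quadratic hb]
  obtain ⟨x, y, hxy⟩ := FiniteField.exists_root_sum_quadratic hf hg hodd
  refine ⟨x, y, ?_⟩
  simp only [eval_sub, eval_mul, eval_C, eval_pow, eval_X, eval_one] at hxy
  linear_combination hxy

/-- in a finite field of odd characteristic, the ratio of two non-squares is a square. -/
theorem eq_nonsq_mul_sq [Finite F] (h2 : (2 : F) ≠ 0) {α c : F} (hα : ¬ IsSquare α)
    (hc : ¬ IsSquare c) : ∃ s : F, s ≠ 0 ∧ c = α * s ^ 2 := by
  classical
  letI : Fintype F := Fintype.ofFinite F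
  have hα0 : α ≠ 0 := fun h => hα (h ▸ IsSquare.zero)
  have hc0 : c ≠ 0 := fun h => hc (h ▸ IsSquare.zero)
  have h1 : quadraticChar F (c / α) = 1 := by
    rw [div_eq_mul_inv, map_mul, quadraticChar_neg_one_iff_not_isSquare.mpr hc]
    have : quadraticChar F α⁻¹ = -1 := by
      rw [quadraticChar_neg_one_iff_not_isSquare]
      intro h
      apply hα
      have := h.inv
      rwa [inv_inv] at this
    rw [this]; norm_num
  rw [quadraticChar_one_iff_isSquare (div_ne_zero hc0 hα0)] at h1
  obtain ⟨s, hs⟩ := h1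
  have hs0 : s ≠ 0 := by
    rintro rfl
    rw [mul_zero, div_eq_zero_iff] at hs
    tauto
  refine ⟨s, hs0, ?_⟩
  rw [div_eq_iff hα0] at hs
  rw [hs]; ring

variable (B : LinearMap.BilinForm F V)

theorem two_step [Finite F] (h2 : (2 : F) ≠ 0) (hS : B.IsSymm) (u1 u2 : V)
    (h12 : B u1 u2 = 0) (ha : B u1 u1 ≠ 0) (hb : B u2 u2 ≠ 0) :
    ∃ w1 w2 : V, B w1 w1 = 1 ∧ B w1 w2 = 0 ∧ B w2 w2 ≠ 0 ∧
      (∀ u, B u u1 = 0 → B u u2 = 0 → B u w1 = 0 ∧ B u w2 = 0) := by
  obtain ⟨x, y, hxy⟩ := exists_sq_add_sq_eq_one h2 ha hb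
  have h21 : B u2 u1 = 0 := by rw [hS.eq]; exact h12
  refine ⟨x • u1 + y • u2, (B u2 u2 * y) • u1 - (B u1 u1 * x) • u2, ?_, ?_, ?_, ?_⟩
  · simp only [map_add, map_smul, LinearMap.add_apply, LinearMap.smul_apply, smul_eq_mul, h12, h21]
    linear_combination hxy
  · simp only [map_add, map_sub, map_smul, LinearMap.add_apply, LinearMap.sub_apply,
      LinearMap.smul_apply, smul_eq_mul, h12, h21]
    ring
  · simp only [map_sub, map_smul, LinearMap.sub_apply, LinearMap.smul_apply, smul_eq_mul, h12, h21]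
    have hne : B u1 u1 * B u2 u2 * (B u1 u1 * x ^ 2 + B u2 u2 * y ^ 2) ≠ 0 := by
      rw [hxy, mul_one]; exact mul_ne_zero ha hb
    intro h0
    apply hne
    linear_combination h0
  · intro u hu1 hu2
    simp [hu1, hu2]

/-- normalising a diagonal form over a finite field of odd characteristic: all diagonal entries
but the last can be made `1`. -/
theorem diag_norm [Finite F] (h2 : (2 : F) ≠ 0) (hS : B.IsSymm) :
    ∀ (n : ℕ) (v : Fin (n + 1) → V), (∀ i j, i ≠ j → B (v i) (v j) = 0) →
      (∀ i, B (v i) (v i) ≠ 0) →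
      ∃ w : Fin (n + 1) → V, (∀ i j, i ≠ j → B (w i) (w j) = 0) ∧
        (∀ i, i ≠ Fin.last n → B (w i) (w i) = 1) ∧ B (w (Fin.last n)) (w (Fin.last n)) ≠ 0 ∧
        (∀ u, (∀ i, B u (v i) = 0) → ∀ i, B u (w i) = 0) := by
  intro n
  induction n with
  | zero =>
    intro v h1 h2'
    refine ⟨v, h1, ?_, h2' _, fun u hu => hu⟩
    intro i hi
    exact absurd (Fin.ext (by have := i.2; simp only [Fin.val_last]; omega)) hi
  | succ n ih =>
    intro v ho hd
    obtain ⟨w1, w2, h11, h12, h22, hu⟩ := two_step B h2 hS (v 0) (v 1)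
      (ho 0 1 (by simp)) (hd 0) (hd 1)
    have hv0 : ∀ i : Fin n, B (v i.succ.succ) (v 0) = 0 := fun i => ho _ _ (by simp [Fin.ext_iff])
    have hv1 : ∀ i : Fin n, B (v i.succ.succ) (v 1) = 0 := fun i => ho _ _ (by simp [Fin.ext_iff])
    let v' : Fin (n + 1) → V := Fin.cons w2 (fun i => v i.succ.succ)
    have ho' : ∀ i j, i ≠ j → B (v' i) (v' j) = 0 := by
      intro i j
      refine Fin.cases ?_ (fun i' => ?_) i <;> refine Fin.cases ?_ (fun j' => ?_) j
      · intro h; exact absurd rfl h
      · intro _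
        simp only [v', Fin.cons_zero, Fin.cons_succ]
        rw [hS.eq]
        exact (hu _ (hv0 j') (hv1 j')).2
      · intro _
        simp only [v', Fin.cons_zero, Fin.cons_succ]
        exact (hu _ (hv0 i') (hv1 i')).2
      · intro h
        simp only [v', Fin.cons_succ]
        exact ho _ _ (by simpa [Fin.ext_iff] using h)
    have hd' : ∀ i, B (v' i) (v' i) ≠ 0 := by
      intro i
      refine Fin.cases ?_ (fun i' => ?_) i
      · simpa [v'] using h22
      · simpa [v'] using hd _
    obtain ⟨w', hw1, hw2, hw3, hw4⟩ := ih v' ho' hd'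
    have hw1v : ∀ i, B w1 (v' i) = 0 := by
      intro i
      refine Fin.cases ?_ (fun i' => ?_) i
      · simpa [v'] using h12
      · simp only [v', Fin.cons_succ]
        rw [hS.eq]
        exact (hu _ (hv0 i') (hv1 i')).1
    have hw1w : ∀ i, B w1 (w' i) = 0 := hw4 w1 hw1v
    refine ⟨Fin.cons w1 w', ?_, ?_, ?_, ?_⟩
    · intro i j
      refine Fin.cases ?_ (fun i' => ?_) i <;> refine Fin.cases ?_ (fun j' => ?_) j
      · intro h; exact absurd rfl h
      · intro _
        simpa using hw1w j'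
      · intro _
        simp only [Fin.cons_zero, Fin.cons_succ]
        rw [hS.eq]; exact hw1w i'
      · intro h
        simp only [Fin.cons_succ]
        exact hw1 _ _ (by simpa [Fin.ext_iff] using h)
    · intro i
      refine Fin.cases ?_ (fun i' => ?_) i
      · intro _; simpa using h11
      · intro h
        simp only [Fin.cons_succ]
        apply hw2
        intro h'
        apply h
        rw [h', Fin.succ_last]
    · have : Fin.last (n + 1) = (Fin.last n).succ := (Fin.succ_last n).symm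
      rw [this]
      simpa using hw3
    · intro u hu' i
      have hu1 : B u (v 0) = 0 := hu' 0
      have hu2 : B u (v 1) = 0 := hu' 1
      have huv' : ∀ i, B u (v' i) = 0 := by
        intro i
        refine Fin.cases ?_ (fun i' => ?_) i
        · simpa [v'] using (hu u hu1 hu2).2
        · simpa [v'] using hu' _
      refine Fin.cases ?_ (fun i' => ?_) i
      · simpa using (hu u hu1 hu2).1
      · simpa using hw4 u huv' i'

/-- S0756: orthogonal basis with diagonal `(1, …, 1, d)`, `d ∈ {1, α}`. -/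
theorem exists_orthonormalish_basis [Finite F] [FiniteDimensional F V] (h2 : (2 : F) ≠ 0)
    (hS : B.IsSymm) (hB : B.Nondegenerate) {n : ℕ} (hn : Module.finrank F V = n + 1) (α : F)
    (hα : ¬ IsSquare α) :
    ∃ b : Module.Basis (Fin (n + 1)) F V, (∀ i j, i ≠ j → B (b i) (b j) = 0) ∧
      (∀ i, i ≠ Fin.last n → B (b i) (b i) = 1) ∧
      (B (b (Fin.last n)) (b (Fin.last n)) = 1 ∨ B (b (Fin.last n)) (b (Fin.last n)) = α) := by
  classical
  haveI : Invertible (2 : F) := invertibleOfNonzero h2
  obtain ⟨v0, hv0⟩ := LinearMap.BilinForm.exists_orthogonal_basis (LinearMap.BilinForm.isSymm_iff.mp hS)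
  let v : Module.Basis (Fin (n + 1)) F V := v0.reindex (finCongr hn)
  have hvo : ∀ i j, i ≠ j → B (v i) (v j) = 0 := by
    intro i j hij
    simp only [v, Module.Basis.reindex_apply]
    exact hv0 (by simpa using hij)
  have hvd : ∀ i, B (v i) (v i) ≠ 0 := by
    intro i
    simp only [v, Module.Basis.reindex_apply]
    exact LinearMap.BilinForm.iIsOrtho.not_isOrtho_basis_self_of_nondegenerate hv0 hB _
  obtain ⟨w, hw1, hw2, hw3, -⟩ := diag_norm B h2 hS n v hvo hvd
  -- normalise the last vector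
  obtain ⟨s, hs0, hs⟩ : ∃ s : F, s ≠ 0 ∧ (B (w (Fin.last n)) (w (Fin.last n)) = s ^ 2 ∨
      B (w (Fin.last n)) (w (Fin.last n)) = α * s ^ 2) := by
    by_cases hsq : IsSquare (B (w (Fin.last n)) (w (Fin.last n)))
    · obtain ⟨s, hs⟩ := hsq
      refine ⟨s, ?_, Or.inl (by rw [hs]; ring)⟩
      rintro rfl
      apply hw3; rw [hs]; simp
    · obtain ⟨s, hs0, hs⟩ := eq_nonsq_mul_sq h2 hα hsq
      exact ⟨s, hs0, Or.inr hs⟩
  let w' : Fin (n + 1) → V := Function.update w (Fin.last n) (s⁻¹ • w (Fin.last n))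
  have hw'1 : ∀ i j, i ≠ j → B (w' i) (w' j) = 0 := by
    intro i j hij
    simp only [w', Function.update_apply]
    split_ifs with h1 h2
    · exact absurd (h1.trans h2.symm) hij
    · simp [hw1 _ _ (fun h => h2 h.symm)]
    · simp [hw1 _ _ h1]
    · exact hw1 _ _ hij
  have hw'2 : ∀ i, i ≠ Fin.last n → B (w' i) (w' i) = 1 := by
    intro i hi
    simp only [w', Function.update_apply, if_neg hi]
    exact hw2 i hi
  have hw'3 : B (w' (Fin.last n)) (w' (Fin.last n)) = 1 ∨ B (w' (Fin.last n)) (w' (Fin.last n)) = α := by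
    simp only [w', Function.update_self, map_smul, LinearMap.smul_apply, smul_eq_mul]
    rcases hs with hs | hs
    · left; rw [hs]; field_simp
    · right; rw [hs]; field_simp
  have hd : ∀ i, B (w' i) (w' i) ≠ 0 := by
    intro i
    by_cases hi : i = Fin.last n
    · rw [hi]
      rcases hw'3 with h | h
      · rw [h]; exact one_ne_zero
      · rw [h]; exact fun h0 => hα (h0 ▸ IsSquare.zero)
    · rw [hw'2 i hi]; exact one_ne_zero
  have hli : LinearIndependent F w' :=
    LinearMap.BilinForm.linearIndependent_of_iIsOrtho (LinearMap.BilinForm.iIsOrtho_def.mpr hw'1) hd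
  refine ⟨basisOfLinearIndependentOfCardEqFinrank hli (by simp [hn]), ?_, ?_, ?_⟩
  · intro i j hij
    simp only [coe_basisOfLinearIndependentOfCardEqFinrank]
    exact hw'1 i j hij
  · intro i hi
    simp only [coe_basisOfLinearIndependentOfCardEqFinrank]
    exact hw'2 i hi
  · simp only [coe_basisOfLinearIndependentOfCardEqFinrank]
    exact hw'3

end finquad

end Cfsg.Agent.Helper13
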