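import Mathlib
import Cfsg.Agent.Helper13.TvCalc
import Cfsg.Agent.Helper13.RegUnip3
import Cfsg.Agent.Helper13.Dyad

/-!
# Two regular unipotent elements generating `SL_{N+1}(F)`, `N ≥ 3` (helper13)

`jM` is the Jordan block on `e₁, …, e_N` fixing `e₀`.  The two generators are
`a = jM + e₀ (ψ jM)ᵀ` and `b = jM + (jM e_N) e₀ᵀ` for a suitable covector `ψ` (`ru2p`); they are
regular unipotent, conjugate under the explicit matrix `ru2G`, and generate `SL_{N+1}(F)`
under mild conditions on the parameters (`ru2_tv10`, `ru2_top`).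
-/

set_option autoImplicit false
set_option linter.unusedSimpArgs false
set_option linter.unusedSectionVars false
set_option linter.unusedVariables false
set_option linter.unreachableTactic false
set_option linter.unusedTactic false
set_option linter.unnecessarySeqFocus false

namespace Cfsg.Agent.Helper13

open Matrix

section regunip2
variable {F : Type*} [Field F] {N : ℕ}

/-- the Jordan block on `e₁, …, e_N`, fixing `e₀`. -/
def jM (N : ℕ) (F : Type*) [Field F] : Matrix (Fin (N + 1)) (Fin (N + 1)) F :=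
  Matrix.of fun i j =>
    if i.val = j.val then 1 else if 1 ≤ i.val ∧ j.val = i.val + 1 then 1 else 0

theorem jM_apply (i j : Fin (N + 1)) :
    jM N F i j = if i.val = j.val then 1 else if 1 ≤ i.val ∧ j.val = i.val + 1 then 1 else 0 :=
  rfl

theorem jM_mulVec (v : Fin (N + 1) → F) (i : Fin (N + 1)) :
    (jM N F *ᵥ v) i = v i + if 1 ≤ i.val ∧ i.val < N then v (rix N (i.val + 1)) else 0 := by
  have h : ∀ j : Fin (N + 1), jM N F i j * v j
      = (if j = i then v j else 0)
        + (if j = rix N (i.val + 1) ∧ (1 ≤ i.val ∧ i.val < N) then v j else 0) := by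
    intro j
    rw [jM_apply]
    have hj := j.2
    have hi := i.2
    have e3 : (rix N (i.val + 1)).val = min (i.val + 1) N := rix_val _ _
    simp only [Fin.ext_iff]
    split_ifs <;> first | ring1 | omega
  show (∑ j, jM N F i j * v j) = _
  simp only [h]
  rw [Finset.sum_add_distrib, Finset.sum_ite_eq' Finset.univ i, if_pos (Finset.mem_univ _)]
  congr 1
  by_cases hP : 1 ≤ i.val ∧ i.val < N
  · simp only [hP, and_true, and_self]
    rw [Finset.sum_ite_eq' Finset.univ _, if_pos (Finset.mem_univ _)]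
    simp
  · rw [if_neg hP]
    apply Finset.sum_eq_zero
    intro j _
    rw [if_neg (fun h => hP h.2)]

theorem jM_vecMul (φ : Fin (N + 1) → F) (j : Fin (N + 1)) :
    (φ ᵥ* jM N F) j = φ j + if 2 ≤ j.val then φ (rix N (j.val - 1)) else 0 := by
  have h : ∀ i : Fin (N + 1), φ i * jM N F i j
      = (if i = j then φ i else 0)
        + (if i = rix N (j.val - 1) ∧ 2 ≤ j.val then φ i else 0) := by
    intro i
    rw [jM_apply]
    have hj := j.2
    have hi := i.2
    have e3 : (rix N (j.val - 1)).val = min (j.val - 1) N := rix_val _ _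
    simp only [Fin.ext_iff]
    split_ifs <;> first | ring1 | omega
  show (∑ i, φ i * jM N F i j) = _
  simp only [h]
  rw [Finset.sum_add_distrib, Finset.sum_ite_eq' Finset.univ j, if_pos (Finset.mem_univ _)]
  congr 1
  by_cases hP : 2 ≤ j.val
  · simp only [hP, and_true]
    rw [Finset.sum_ite_eq' Finset.univ _, if_pos (Finset.mem_univ _)]
    simp
  · rw [if_neg hP]
    apply Finset.sum_eq_zero
    intro i _
    rw [if_neg (fun h => hP h.2)]

theorem jM_mulVec_single {j : ℕ} (hj : 2 ≤ j) (hjN : j ≤ N) (t : F) :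
    jM N F *ᵥ Pi.single (rix N j) t = Pi.single (rix N j) t + Pi.single (rix N (j - 1)) t := by
  ext i
  have hi := i.2
  have e1 : (rix N j).val = j := by rw [rix_val]; omega
  have e2 : (rix N (j - 1)).val = j - 1 := by rw [rix_val]; omega
  have e3 : (rix N (i.val + 1)).val = min (i.val + 1) N := rix_val _ _
  rw [jM_mulVec, Pi.add_apply]
  simp only [Pi.single_apply, Fin.ext_iff]
  split_ifs <;> first | ring1 | omega

theorem jM_det : (jM N F).det = 1 := by
  rw [Matrix.det_of_isUpperTriangular]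
  · simp [jM_apply]
  · intro i j hij
    have : j.val < i.val := hij
    rw [jM_apply, if_neg (by omega), if_neg (by omega)]

/-- `e₀*` vanishes on `e_j`, `j ≥ 1`. -/
theorem ru2_dot0 {j : ℕ} (hj : 1 ≤ j) (hjN : j ≤ N) (t : F) :
    (Pi.single (rix N 0) (1 : F) : Fin (N + 1) → F) ⬝ᵥ Pi.single (rix N j) t = 0 := by
  rw [single_dotProduct, one_mul, Pi.single_apply, if_neg]
  intro h
  have := congrArg Fin.val h
  rw [rix_val, rix_val] at this
  omega

/-- the covector `ψ`. -/
def ru2p (N : ℕ) (θ κ : F) : Fin (N + 1) → F := fun j =>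
  if j.val = 1 then θ else if j.val + 2 = N then κ else if j.val + 1 = N then 2 else 0

/-- the parameter `σ = ψ (jM² e_N)`. -/
def ru2s (N : ℕ) (θ κ : F) : F := 4 + if N = 3 then θ else κ

theorem ru2p_0 (hN : 3 ≤ N) (θ κ : F) : ru2p N θ κ (rix N 0) = 0 := by
  have e0 : (rix N 0).val = 0 := by rw [rix_val]; omega
  unfold ru2p
  split_ifs <;> first | rfl | omega

theorem ru2p_1 (hN : 3 ≤ N) (θ κ : F) : ru2p N θ κ (rix N 1) = θ := by
  have e0 : (rix N 1).val = 1 := by rw [rix_val]; omega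
  unfold ru2p
  split_ifs <;> first | rfl | omega

theorem ru2p_N (hN : 3 ≤ N) (θ κ : F) : ru2p N θ κ (rix N N) = 0 := by
  have e0 : (rix N N).val = N := by rw [rix_val]; omega
  unfold ru2p
  split_ifs <;> first | rfl | omega

theorem ru2p_N1 (hN : 3 ≤ N) (θ κ : F) : ru2p N θ κ (rix N (N - 1)) = 2 := by
  have e0 : (rix N (N - 1)).val = N - 1 := by rw [rix_val]; omega
  unfold ru2p
  split_ifs <;> first | rfl | omega

theorem ru2p_N2 (hN : 3 ≤ N) (θ κ : F) :
    ru2p N θ κ (rix N (N - 1 - 1)) = if N = 3 then θ else κ := by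
  have e0 : (rix N (N - 1 - 1)).val = N - 2 := by rw [rix_val]; omega
  unfold ru2p
  split_ifs <;> first | rfl | omega

theorem ru2_data (hN : 3 ≤ N) (θ κ : F) :
    RU2 (jM N F) (Pi.single (rix N 0) 1) (Pi.single (rix N 0) 1) (Pi.single (rix N N) 1)
      (ru2p N θ κ) (ru2s N θ κ) := by
  have e0 : (rix N 0).val = 0 := by rw [rix_val]; omega
  have eN : (rix N N).val = N := by rw [rix_val]; omega
  refine ⟨?_, ?_, ?_, ?_, ?_, ?_, ?_, ?_⟩
  · ext i
    have hi := i.2
    have e3 : (rix N (i.val + 1)).val = min (i.val + 1) N := rix_val _ _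
    rw [jM_mulVec]
    simp only [Pi.single_apply, Fin.ext_iff]
    split_ifs <;> first | ring1 | omega
  · ext j
    have hj := j.2
    have e3 : (rix N (j.val - 1)).val = min (j.val - 1) N := rix_val _ _
    rw [jM_vecMul]
    simp only [Pi.single_apply, Fin.ext_iff]
    split_ifs <;> first | ring1 | omega
  · rw [single_dotProduct, Pi.single_eq_same, mul_one]
  · exact ru2_dot0 (by omega) le_rfl 1
  · rw [dotProduct_single, mul_one, ru2p_0 hN]
  · rw [dotProduct_single, mul_one, ru2p_N hN]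
  · rw [jM_mulVec_single (by omega) le_rfl, dotProduct_add, dotProduct_single, dotProduct_single,
      mul_one, mul_one, ru2p_N hN, ru2p_N1 hN, zero_add]
  · rw [jM_mulVec_single (by omega) le_rfl, Matrix.mulVec_add,
      jM_mulVec_single (by omega) le_rfl, jM_mulVec_single (j := N - 1) (by omega) (by omega)]
    simp only [dotProduct_add, dotProduct_single, mul_one, ru2p_N hN, ru2p_N1 hN, ru2p_N2 hN]
    unfold ru2s
    ring

/-- elementary matrices as dyadic transvections, scalar on the right. -/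
theorem dy_single' (i j : Fin (N + 1)) (t : F) :
    (1 : Matrix (Fin (N + 1)) (Fin (N + 1)) F) + vecMulVec (Pi.single i 1) (Pi.single j t)
      = Matrix.transvection i j t := by
  rw [← dy_single]
  congr 1
  ext a b
  simp only [vecMulVec_apply, Pi.single_apply]
  split_ifs <;> ring

theorem DyIn.tvAt' {H : Subgroup (Matrix.SpecialLinearGroup (Fin (N + 1)) F)}
    {i j : Fin (N + 1)} {t : F} (h : DyIn H (Pi.single i 1) (Pi.single j t)) : TvAt H i j t := by
  obtain ⟨g, hg, e⟩ := h
  exact tvAt_of_mem g (e.trans (dy_single' i j t)) hg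

/-- moving down the column root groups with `jM`. -/
theorem ru2_chain (H : Subgroup (Matrix.SpecialLinearGroup (Fin (N + 1)) F))
    (hstep : ∀ v : Fin (N + 1) → F,
      (Pi.single (rix N 0) (1 : F) : Fin (N + 1) → F) ⬝ᵥ v = 0 →
      DyIn H v (Pi.single (rix N 0) 1) → DyIn H (jM N F *ᵥ v) (Pi.single (rix N 0) 1))
    (t : F) (h : DyIn H (Pi.single (rix N N) t) (Pi.single (rix N 0) 1)) :
    ∀ d : ℕ, d + 1 ≤ N → DyIn H (Pi.single (rix N (N - d)) t) (Pi.single (rix N 0) 1) := by
  intro d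
  induction d with
  | zero =>
    intro _
    exact h
  | succ d ih =>
    intro hd
    have h1 := ih (by omega)
    have h2 := hstep _ (ru2_dot0 (j := N - d) (by omega) (by omega) t) h1
    rw [jM_mulVec_single (j := N - d) (by omega) (by omega)] at h2
    have h3 := DyIn.cancel_left (ru2_dot0 (j := N - d) (by omega) (by omega) t)
      (ru2_dot0 (j := N - d - 1) (by omega) (by omega) t) h2 h1
    have e : N - d - 1 = N - (d + 1) := by omega
    rw [e] at h3
    exact h3

/-- the root group `1 + F e₁ e₀ᵀ` lies in `⟨a, b⟩`. -/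
theorem ru2_tv10 (hN : 3 ≤ N) (θ κ : F) (hσ : ru2s N θ κ ≠ 0)
    (hfull : ∀ P : F → Prop, P 0 → (∀ x y, P x → P y → P (x + y)) → (∀ x, P x → P (-x)) →
      (∀ x, P x → P (θ * x)) → (∃ c, c ≠ 0 ∧ P c) → ∀ t, P t)
    (H : Subgroup (Matrix.SpecialLinearGroup (Fin (N + 1)) F))
    (a b : Matrix.SpecialLinearGroup (Fin (N + 1)) F)
    (ha : a.1 = jM N F + vecMulVec (Pi.single (rix N 0) 1) (ru2p N θ κ ᵥ* jM N F))
    (hb : b.1 = jM N F + vecMulVec (jM N F *ᵥ Pi.single (rix N N) 1) (Pi.single (rix N 0) 1))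
    (haH : a ∈ H) (hbH : b ∈ H) : TvFull H (rix N 1) (rix N 0) := by
  have hd := ru2_data (F := F) hN θ κ
  obtain ⟨hs1, hs2, ε, hεH, hε⟩ := ru2_seed hd H a b ha hb haH hbH
  have hstep : ∀ v : Fin (N + 1) → F,
      (Pi.single (rix N 0) (1 : F) : Fin (N + 1) → F) ⬝ᵥ v = 0 →
      DyIn H v (Pi.single (rix N 0) 1) → DyIn H (jM N F *ᵥ v) (Pi.single (rix N 0) 1) :=
    fun v hv h => (ru2_colM hd H b hb hbH v hv).1 h
  have hdown : ∀ t : F, DyIn H (Pi.single (rix N N) t) (Pi.single (rix N 0) 1) →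
      DyIn H (Pi.single (rix N 1) t) (Pi.single (rix N 0) 1) := by
    intro t h
    have h1 := ru2_chain H hstep t h (N - 1) (by omega)
    have e : N - (N - 1) = 1 := by omega
    rw [e] at h1
    exact h1
  have hall : ∀ t : F, DyIn H (Pi.single (rix N N) t) (Pi.single (rix N 0) 1) := by
    apply hfull (fun t => DyIn H (Pi.single (rix N N) t) (Pi.single (rix N 0) (1 : F)))
    · show DyIn H (Pi.single (rix N N) (0 : F)) (Pi.single (rix N 0) (1 : F))
      rw [Pi.single_zero]
      exact DyIn.zero_left H _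
    · intro x y hx hy
      show DyIn H (Pi.single (rix N N) (x + y)) (Pi.single (rix N 0) (1 : F))
      rw [Pi.single_add]
      exact DyIn.add_left (ru2_dot0 (by omega) le_rfl y) hx hy
    · intro x hx
      show DyIn H (Pi.single (rix N N) (-x)) (Pi.single (rix N 0) (1 : F))
      rw [Pi.single_neg]
      exact DyIn.neg_left (ru2_dot0 (by omega) le_rfl x) hx
    · intro x hx
      show DyIn H (Pi.single (rix N N) (θ * x)) (Pi.single (rix N 0) (1 : F))
      have h2 := ru2_colE hd H b ε hb hbH hε hεH _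
        (ru2_dot0 (j := 1) (by omega) (by omega) x) (hdown x hx)
      rw [dotProduct_single, ru2p_1 hN, ← Pi.single_smul', smul_eq_mul, mul_one] at h2
      exact h2
    · by_cases h2 : (2 : F) = 0
      · refine ⟨ru2s N θ κ, hσ, ?_⟩
        have h3 := hs2 h2
        rw [← Pi.single_smul', smul_eq_mul, mul_one] at h3
        exact h3
      · refine ⟨-(2 * ru2s N θ κ), neg_ne_zero.mpr (mul_ne_zero h2 hσ), ?_⟩
        rw [← Pi.single_smul', smul_eq_mul, mul_one] at hs1
        exact hs1
  intro t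
  exact (hdown t (hall t)).tvAt

/-- the shift of a covector by `k` places. -/
def ru2sh (k : ℕ) (φ : Fin (N + 1) → F) : Fin (N + 1) → F := fun j =>
  if k + 1 ≤ j.val then φ (rix N (j.val - k)) else 0

/-- from the root group `1 + F e₁ e₀ᵀ` to everything. -/
theorem ru2_top (hN : 3 ≤ N) (θ κ : F) (hθ : θ ≠ 0)
    (H : Subgroup (Matrix.SpecialLinearGroup (Fin (N + 1)) F))
    (m a b : Matrix.SpecialLinearGroup (Fin (N + 1)) F) (hm : m.1 = jM N F)
    (ha : a.1 = jM N F + vecMulVec (Pi.single (rix N 0) 1) (ru2p N θ κ ᵥ* jM N F))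
    (hb : b.1 = jM N F + vecMulVec (jM N F *ᵥ Pi.single (rix N N) 1) (Pi.single (rix N 0) 1))
    (haH : a ∈ H) (hbH : b ∈ H) (h10 : TvFull H (rix N 1) (rix N 0)) : H = ⊤ := by
  have hd := ru2_data (F := F) hN θ κ
  have e0 : (rix N 0).val = 0 := by rw [rix_val]; omega
  have hv0 : (Pi.single (rix N 0) (1 : F) : Fin (N + 1) → F) ⬝ᵥ Pi.single (rix N 1) (-θ⁻¹) = 0 :=
    ru2_dot0 (by omega) (by omega) _
  have hv1 : ru2p N θ κ ⬝ᵥ Pi.single (rix N 1) (-θ⁻¹) = -1 := by
    rw [dotProduct_single, ru2p_1 hN, mul_neg, mul_inv_cancel₀ hθ]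
  have hx : ∀ s : F, DyIn H (s • (Pi.single (rix N 1) (-θ⁻¹) : Fin (N + 1) → F))
      (Pi.single (rix N 0) 1) := by
    intro s
    rw [← Pi.single_smul']
    exact (h10 _).dyIn (rix_ne (by omega))
  obtain ⟨hmH, hk, hrow⟩ := ru2_core hd H m a b hm ha hb haH hbH _ hv0 hv1 hx
  -- the row side
  have hsh : ∀ φ : Fin (N + 1) → F, φ (rix N 0) = 0 → DyIn H (Pi.single (rix N 0) 1) φ →
      DyIn H (Pi.single (rix N 0) 1) (ru2sh 1 φ) := by
    intro φ h0 h
    have h1 := ru2_rowM hd.hMe0 H m hm hmH φ h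
    have e : φ ᵥ* jM N F = φ + ru2sh 1 φ := by
      ext j
      rw [jM_vecMul, Pi.add_apply]
      rfl
    rw [e] at h1
    refine DyIn.cancel_right ?_ ?_ h1 h
    · rw [dotProduct_single, mul_one, h0]
    · rw [dotProduct_single, mul_one]
      show (if 1 + 1 ≤ (rix N 0).val then _ else _) = (0 : F)
      rw [if_neg (by omega)]
  have hshk : ∀ (k : ℕ) (φ : Fin (N + 1) → F), φ (rix N 0) = 0 →
      DyIn H (Pi.single (rix N 0) 1) φ → DyIn H (Pi.single (rix N 0) 1) (ru2sh k φ) := by
    intro k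
    induction k with
    | zero =>
      intro φ h0 h
      have e : ru2sh 0 φ = φ := by
        ext j
        have hj := j.2
        unfold ru2sh
        by_cases hj1 : 0 + 1 ≤ j.val
        · rw [if_pos hj1, Nat.sub_zero, rix_self]
        · rw [if_neg hj1]
          have : j = rix N 0 := Fin.ext (by rw [e0]; omega)
          rw [this, h0]
      rw [e]
      exact h
    | succ k ih =>
      intro φ h0 h
      have h1 := ih φ h0 h
      have hz : ru2sh k φ (rix N 0) = 0 := by
        show (if k + 1 ≤ (rix N 0).val then _ else _) = (0 : F)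
        rw [if_neg (by omega)]
      have h2 := hsh _ hz h1
      have e : ru2sh (k + 1) φ = ru2sh 1 (ru2sh k φ) := by
        ext j
        have hj := j.2
        have e3 : (rix N (j.val - 1)).val = j.val - 1 := by rw [rix_val]; omega
        simp only [ru2sh, e3]
        split_ifs <;> first | rfl | omega | (congr 2; omega)
      rw [e]
      exact h2
  have hQ : ∀ d : ℕ, d ≤ N → ∀ φ : Fin (N + 1) → F,
      (∀ i : Fin (N + 1), i.val < N + 1 - d → φ i = 0) → DyIn H (Pi.single (rix N 0) 1) φ := by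
    intro d
    induction d with
    | zero =>
      intro _ φ hφ
      have : φ = 0 := funext fun i => hφ i (by have := i.2; omega)
      rw [this]
      exact DyIn.zero_right H _
    | succ d ih =>
      intro hd' φ hφ
      have ej : (rix N (N - d)).val = N - d := by rw [rix_val]; omega
      have e1 : (rix N 1).val = 1 := by rw [rix_val]; omega
      obtain ⟨χ, hχd⟩ : ∃ χ : Fin (N + 1) → F,
          χ = ru2sh (N - d - 1) ((φ (rix N (N - d)) * θ⁻¹) • ru2p N θ κ) := ⟨_, rfl⟩
      have hχ : DyIn H (Pi.single (rix N 0) 1) χ := by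
        rw [hχd]
        refine hshk _ _ ?_ (hrow _)
        rw [Pi.smul_apply, ru2p_0 hN, smul_zero]
      have hχj : χ (rix N (N - d)) = φ (rix N (N - d)) := by
        rw [hχd]
        show (if N - d - 1 + 1 ≤ (rix N (N - d)).val then
          ((φ (rix N (N - d)) * θ⁻¹) • ru2p N θ κ) (rix N ((rix N (N - d)).val - (N - d - 1)))
          else 0) = _
        rw [if_pos (by omega), ej]
        have e2 : N - d - (N - d - 1) = 1 := by omega
        rw [e2, Pi.smul_apply, ru2p_1 hN, smul_eq_mul, inv_mul_cancel_right₀ hθ]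
      have hχlow : ∀ i : Fin (N + 1), i.val < N - d → χ i = 0 := by
        intro i hi
        rw [hχd]
        show (if N - d - 1 + 1 ≤ i.val then _ else _) = (0 : F)
        rw [if_neg (by omega)]
      have h1 : DyIn H (Pi.single (rix N 0) 1) (φ - χ) := by
        apply ih (by omega)
        intro i hi
        rw [Pi.sub_apply]
        by_cases hi2 : i.val < N - d
        · rw [hφ i (by omega), hχlow i hi2, sub_zero]
        · have : i = rix N (N - d) := Fin.ext (by rw [ej]; omega)
          rw [this, hχj, sub_self]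
      have h2 := DyIn.add_right (by
        rw [dotProduct_single, mul_one]
        exact hχlow _ (by omega)) hχ h1
      rw [add_sub_cancel] at h2
      exact h2
  have h0j : ∀ j : ℕ, 1 ≤ j → j ≤ N → TvFull H (rix N 0) (rix N j) := by
    intro j hj hjN t
    apply DyIn.tvAt'
    apply hQ N le_rfl
    intro i hi
    rw [Pi.single_apply, if_neg]
    intro h
    have := congrArg Fin.val h
    rw [rix_val] at this
    omega
  -- the column side
  have hcolM := ru2_colM' hd.he0sM H m hm hmH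
  rw [jM_mulVec_single (by omega) le_rfl] at hk
  have hpair : ∀ d : ℕ, d + 2 ≤ N →
      DyIn H (Pi.single (rix N (N - d)) (1 : F) + Pi.single (rix N (N - d - 1)) 1)
        (Pi.single (rix N 0) 1) := by
    intro d
    induction d with
    | zero =>
      intro _
      exact hk
    | succ d ih =>
      intro hd'
      have h1 := ih (by omega)
      have h2 := hcolM _ h1
      rw [Matrix.mulVec_add, jM_mulVec_single (j := N - d) (by omega) (by omega),
        jM_mulVec_single (j := N - d - 1) (by omega) (by omega)] at h2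
      have h3 := DyIn.cancel_left
        (by rw [dotProduct_add, ru2_dot0 (j := N - d) (by omega) (by omega),
          ru2_dot0 (j := N - d - 1) (by omega) (by omega), add_zero])
        (by rw [dotProduct_add, ru2_dot0 (j := N - d - 1) (by omega) (by omega),
          ru2_dot0 (j := N - d - 1 - 1) (by omega) (by omega), add_zero]) h2 h1
      have e1 : N - d - 1 = N - (d + 1) := by omega
      rw [e1] at h3
      exact h3
  have hC : ∀ j : ℕ, 1 ≤ j → j ≤ N →
      DyIn H (Pi.single (rix N j) (1 : F)) (Pi.single (rix N 0) 1) := by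
    intro j
    induction j with
    | zero =>
      intro h
      omega
    | succ j ih =>
      intro _ hjN
      by_cases hj1 : j = 0
      · subst hj1
        exact (h10 1).dyIn (rix_ne (by omega))
      · have h1 := ih (by omega) (by omega)
        have h2 := hpair (N - (j + 1)) (by omega)
        have e1 : N - (N - (j + 1)) = j + 1 := by omega
        rw [e1, Nat.add_sub_cancel] at h2
        have h2' : DyIn H (Pi.single (rix N j) (1 : F) + Pi.single (rix N (j + 1)) 1)
            (Pi.single (rix N 0) 1) := by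
          have e2 : (Pi.single (rix N j) (1 : F) + Pi.single (rix N (j + 1)) 1 : Fin (N + 1) → F)
              = Pi.single (rix N (j + 1)) 1 + Pi.single (rix N j) 1 := add_comm _ _
          rw [e2]
          exact h2
        exact DyIn.cancel_left (ru2_dot0 (by omega) (by omega) 1)
          (ru2_dot0 (by omega) (by omega) 1) h2' h1
  have hj0 : ∀ j : ℕ, 1 ≤ j → j ≤ N → TvFull H (rix N j) (rix N 0) := by
    intro j hj hjN
    by_cases hj1 : j = 1
    · rw [hj1]
      exact h10
    · have hj1' : TvFull H (rix N j) (rix N 1) :=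
        TvFull.comp_right (rix_ne (by omega)) (rix_ne (by omega)) (rix_ne (by omega))
          one_ne_zero (hC j hj hjN).tvAt (h0j 1 (by omega) (by omega))
      exact TvFull.comp (rix_ne (by omega)) (rix_ne (by omega)) (rix_ne (by omega)) hj1' h10
  have : Nontrivial (Fin (N + 1)) := Fin.nontrivial_iff_two_le.2 (by omega)
  apply sl_top_of_tvFull
  intro i j hij
  have hi2 := i.2
  have hj2 := j.2
  have hij' : i.val ≠ j.val := fun h => hij (Fin.ext h)
  rw [← rix_self i, ← rix_self j]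
  by_cases hi : i.val = 0
  · rw [hi]
    exact h0j j.val (by omega) (by omega)
  · by_cases hj : j.val = 0
    · rw [hj]
      exact hj0 i.val (by omega) (by omega)
    · exact TvFull.comp (rix_ne (by omega)) (rix_ne (by omega)) (rix_ne (by omega))
        (hj0 i.val (by omega) (by omega)) (h0j j.val (by omega) (by omega))

/-! ### Regularity of `a` -/

/-- powers of a strictly upper triangular matrix vanish below the `k`-th superdiagonal. -/
theorem sut_pow_zero (X : Matrix (Fin (N + 1)) (Fin (N + 1)) F)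
    (hX : ∀ a b : Fin (N + 1), b.val ≤ a.val → X a b = 0) (k : ℕ) (a b : Fin (N + 1))
    (h : b.val < a.val + k) : (X ^ k) a b = 0 := by
  induction k generalizing b with
  | zero =>
    rw [pow_zero, Matrix.one_apply_ne]
    intro e
    rw [e] at h
    omega
  | succ k ih =>
    rw [pow_succ, Matrix.mul_apply]
    apply Finset.sum_eq_zero
    intro c _
    by_cases hc : c.val < a.val + k
    · rw [ih c hc, zero_mul]
    · rw [hX c b (by omega), mul_zero]

/-- the corner entries of the powers of a strictly upper triangular matrix with superdiagonal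
`(θ, 1, …, 1)`. -/
theorem sut_pow_corner (X : Matrix (Fin (N + 1)) (Fin (N + 1)) F)
    (hX : ∀ a b : Fin (N + 1), b.val ≤ a.val → X a b = 0) (θ : F)
    (h0 : X (rix N 0) (rix N 1) = θ)
    (h1 : ∀ i : ℕ, 1 ≤ i → i + 1 ≤ N → X (rix N i) (rix N (i + 1)) = 1) :
    ∀ k : ℕ, 1 ≤ k → k ≤ N → (X ^ k) (rix N 0) (rix N k) = θ := by
  intro k
  induction k with
  | zero =>
    intro h
    omega
  | succ k ih =>
    intro _ hkN
    by_cases hk0 : k = 0
    · subst hk0
      rw [zero_add, pow_one]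
      exact h0
    · have e0 : (rix N 0).val = 0 := by rw [rix_val]; omega
      have ek : (rix N k).val = k := by rw [rix_val]; omega
      have ek1 : (rix N (k + 1)).val = k + 1 := by rw [rix_val]; omega
      rw [pow_succ, Matrix.mul_apply, Finset.sum_eq_single (rix N k)]
      · rw [ih (by omega) (by omega), h1 k (by omega) hkN, mul_one]
      · intro c _ hc
        have hc2 : c.val ≠ k := fun e => hc (Fin.ext (by rw [ek]; exact e))
        by_cases hc3 : c.val < k
        · rw [sut_pow_zero X hX k (rix N 0) c (by rw [e0]; omega), zero_mul]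
        · rw [hX c (rix N (k + 1)) (by rw [ek1]; omega), mul_zero]
      · intro h'
        exact absurd (Finset.mem_univ _) h'

theorem sut_regular (hN : 1 ≤ N) (X : Matrix (Fin (N + 1)) (Fin (N + 1)) F)
    (hX : ∀ a b : Fin (N + 1), b.val ≤ a.val → X a b = 0) (θ : F) (hθ : θ ≠ 0)
    (h0 : X (rix N 0) (rix N 1) = θ)
    (h1 : ∀ i : ℕ, 1 ≤ i → i + 1 ≤ N → X (rix N i) (rix N (i + 1)) = 1) :
    IsNilpotent X ∧ X ^ N ≠ 0 := by
  refine ⟨⟨N + 1, ?_⟩, ?_⟩
  · ext a b
    have hb := b.2
    rw [sut_pow_zero X hX (N + 1) a b (by omega)]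
    rfl
  · intro h
    have h2 := sut_pow_corner X hX θ h0 h1 N hN le_rfl
    rw [h, Matrix.zero_apply] at h2
    exact hθ h2.symm

theorem ru2psi_0 (hN : 3 ≤ N) (θ κ : F) : (ru2p N θ κ ᵥ* jM N F) (rix N 0) = 0 := by
  have e0 : (rix N 0).val = 0 := by rw [rix_val]; omega
  rw [jM_vecMul, ru2p_0 hN, if_neg (by omega), add_zero]

theorem ru2psi_1 (hN : 3 ≤ N) (θ κ : F) : (ru2p N θ κ ᵥ* jM N F) (rix N 1) = θ := by
  have e1 : (rix N 1).val = 1 := by rw [rix_val]; omega
  rw [jM_vecMul, ru2p_1 hN, if_neg (by omega), add_zero]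

/-- `a` is regular unipotent. -/
theorem ru2A_regular (hN : 3 ≤ N) (θ : F) (hθ : θ ≠ 0) (ψ : Fin (N + 1) → F)
    (hψ0 : ψ (rix N 0) = 0) (hψ1 : ψ (rix N 1) = θ) :
    IsNilpotent (jM N F + vecMulVec (Pi.single (rix N 0) 1) ψ - 1) ∧
      (jM N F + vecMulVec (Pi.single (rix N 0) 1) ψ - 1) ^ N ≠ 0 := by
  have e0 : (rix N 0).val = 0 := by rw [rix_val]; omega
  have e1 : (rix N 1).val = 1 := by rw [rix_val]; omega
  have hent : ∀ a b : Fin (N + 1),
      (jM N F + vecMulVec (Pi.single (rix N 0) 1) ψ - 1) a b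
      = (if 1 ≤ a.val ∧ b.val = a.val + 1 then 1 else 0) + (if a.val = 0 then ψ b else 0) := by
    intro a b
    rw [Matrix.sub_apply, Matrix.add_apply, jM_apply, vecMulVec_apply, Matrix.one_apply,
      Pi.single_apply]
    simp only [Fin.ext_iff]
    split_ifs <;> first | ring1 | omega
  apply sut_regular (by omega) _ _ θ hθ
  · rw [hent, if_neg (by omega), if_pos e0, hψ1, zero_add]
  · intro i hi hiN
    have ei : (rix N i).val = i := by rw [rix_val]; omega
    have ei1 : (rix N (i + 1)).val = i + 1 := by rw [rix_val]; omega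
    rw [hent, if_pos (by omega), if_neg (by omega), add_zero]
  · intro a b hab
    rw [hent, if_neg (by omega)]
    by_cases ha : a.val = 0
    · have : b = rix N 0 := Fin.ext (by rw [e0]; omega)
      rw [if_pos ha, this, hψ0, add_zero]
    · rw [if_neg ha, add_zero]

/-! ### The conjugating matrix -/

/-- the conjugating matrix. -/
def ru2G (N : ℕ) (θ : F) (ψ : Fin (N + 1) → F) : Matrix (Fin (N + 1)) (Fin (N + 1)) F :=
  Matrix.of fun i j =>
    if j.val = 0 then (if i.val = 1 then θ⁻¹ else 0)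
    else if j.val = N then (if i.val = 0 then 1 else 0)
    else (if i.val = j.val + 1 then 1 else 0) + (if i.val = j.val then 1 else 0)
      - (if i.val = 1 then θ⁻¹ * ψ (rix N (j.val + 1)) else 0)

theorem ru2G_apply (θ : F) (ψ : Fin (N + 1) → F) (i j : Fin (N + 1)) :
    ru2G N θ ψ i j =
      if j.val = 0 then (if i.val = 1 then θ⁻¹ else 0)
      else if j.val = N then (if i.val = 0 then 1 else 0)
      else (if i.val = j.val + 1 then 1 else 0) + (if i.val = j.val then 1 else 0)
        - (if i.val = 1 then θ⁻¹ * ψ (rix N (j.val + 1)) else 0) := rfl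

theorem ru2G_col0 (θ : F) (ψ : Fin (N + 1) → F) (i : Fin (N + 1)) :
    ru2G N θ ψ i (rix N 0) = if i.val = 1 then θ⁻¹ else 0 := by
  have e0 : (rix N 0).val = 0 := by rw [rix_val]; omega
  rw [ru2G_apply, if_pos e0]

theorem ru2G_colN (hN : 1 ≤ N) (θ : F) (ψ : Fin (N + 1) → F) (i : Fin (N + 1)) :
    ru2G N θ ψ i (rix N N) = if i.val = 0 then 1 else 0 := by
  have eN : (rix N N).val = N := by rw [rix_val]; omega
  rw [ru2G_apply, if_neg (by omega), if_pos eN]

theorem ru2G_mid (θ : F) (ψ : Fin (N + 1) → F) (i j : Fin (N + 1)) (h1 : 1 ≤ j.val)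
    (h2 : j.val < N) :
    ru2G N θ ψ i j = (if i.val = j.val + 1 then 1 else 0) + (if i.val = j.val then 1 else 0)
        - (if i.val = 1 then θ⁻¹ * ψ (rix N (j.val + 1)) else 0) := by
  rw [ru2G_apply, if_neg (by omega), if_neg (by omega)]

theorem mul_jM_apply (A : Matrix (Fin (N + 1)) (Fin (N + 1)) F) (i j : Fin (N + 1)) :
    (A * jM N F) i j = A i j + if 2 ≤ j.val then A i (rix N (j.val - 1)) else 0 :=
  jM_vecMul (fun k => A i k) j

theorem jM_mul_apply (A : Matrix (Fin (N + 1)) (Fin (N + 1)) F) (i j : Fin (N + 1)) :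
    (jM N F * A) i j = A i j + if 1 ≤ i.val ∧ i.val < N then A (rix N (i.val + 1)) j else 0 :=
  jM_mulVec (fun k => A k j) i

theorem ru2G_row0 (hN : 1 ≤ N) (θ : F) (ψ : Fin (N + 1) → F) (j : Fin (N + 1))
    (hj : j.val ≠ N) : ru2G N θ ψ (rix N 0) j = 0 := by
  have e0 : (rix N 0).val = 0 := by rw [rix_val]; omega
  rw [ru2G_apply]
  split_ifs <;> first | ring1 | omega

theorem ru2G_entA (hN : 3 ≤ N) (θ : F) (ψ : Fin (N + 1) → F) (h0 : ψ (rix N 0) = 0)
    (i : Fin (N + 1)) :
    ru2G N θ ψ i (rix N 0)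
        + (if 2 ≤ (rix N 0).val then ru2G N θ ψ i (rix N ((rix N 0).val - 1)) else 0)
        + ru2G N θ ψ i (rix N 0) * ψ (rix N 0)
      = ru2G N θ ψ i (rix N 0)
        + (if 1 ≤ i.val ∧ i.val < N then ru2G N θ ψ (rix N (i.val + 1)) (rix N 0) else 0)
        + ((if i.val = N then 1 else 0) + (if i.val = N - 1 then 1 else 0))
          * ru2G N θ ψ (rix N 0) (rix N 0) := by
  have hi := i.2
  have e0 : (rix N 0).val = 0 := by rw [rix_val]; omega
  have e3 : (rix N (i.val + 1)).val = min (i.val + 1) N := rix_val _ _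
  rw [if_neg (by omega), h0, ru2G_row0 (by omega) θ ψ (rix N 0) (by omega)]
  simp only [mul_zero, add_zero]
  simp only [ru2G_col0]
  split_ifs <;> first | ring1 | omega

theorem ru2G_entB (hN : 3 ≤ N) (θ : F) (ψ : Fin (N + 1) → F) (i : Fin (N + 1)) :
    ru2G N θ ψ i (rix N N)
        + (if 2 ≤ (rix N N).val then ru2G N θ ψ i (rix N ((rix N N).val - 1)) else 0)
        + ru2G N θ ψ i (rix N 0) * ψ (rix N N)
      = ru2G N θ ψ i (rix N N)
        + (if 1 ≤ i.val ∧ i.val < N then ru2G N θ ψ (rix N (i.val + 1)) (rix N N) else 0)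
        + ((if i.val = N then 1 else 0) + (if i.val = N - 1 then 1 else 0))
          * ru2G N θ ψ (rix N 0) (rix N N) := by
  have hi := i.2
  have e0 : (rix N 0).val = 0 := by rw [rix_val]; omega
  have eN : (rix N N).val = N := by rw [rix_val]; omega
  have eN1 : (rix N (N - 1)).val = N - 1 := by rw [rix_val]; omega
  have e3 : (rix N (i.val + 1)).val = min (i.val + 1) N := rix_val _ _
  have hidx0 : rix N ((rix N N).val - 1) = rix N (N - 1) := by rw [eN]
  have hidx : rix N ((rix N (N - 1)).val + 1) = rix N N := by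
    apply Fin.ext
    show min ((rix N (N - 1)).val + 1) N = (rix N N).val
    rw [eN1, eN]
    omega
  have hG0N : ru2G N θ ψ (rix N 0) (rix N N) = 1 := by
    rw [ru2G_colN (by omega), if_pos e0]
  rw [if_pos (by omega), hidx0,
    ru2G_mid θ ψ i (rix N (N - 1)) (by rw [eN1]; omega) (by rw [eN1]; omega), hidx, hG0N,
    mul_one, add_assoc, add_assoc]
  congr 1
  simp only [ru2G_colN (show 1 ≤ N by omega), ru2G_col0]
  split_ifs <;> first | ring1 | omega

theorem ru2G_entC (hN : 3 ≤ N) (θ : F) (hθ : θ ≠ 0) (ψ : Fin (N + 1) → F)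
    (h1 : ψ (rix N 1) = θ) (i : Fin (N + 1)) :
    ru2G N θ ψ i (rix N 1)
        + (if 2 ≤ (rix N 1).val then ru2G N θ ψ i (rix N ((rix N 1).val - 1)) else 0)
        + ru2G N θ ψ i (rix N 0) * ψ (rix N 1)
      = ru2G N θ ψ i (rix N 1)
        + (if 1 ≤ i.val ∧ i.val < N then ru2G N θ ψ (rix N (i.val + 1)) (rix N 1) else 0)
        + ((if i.val = N then 1 else 0) + (if i.val = N - 1 then 1 else 0))
          * ru2G N θ ψ (rix N 0) (rix N 1) := by
  have hi := i.2
  have e0 : (rix N 0).val = 0 := by rw [rix_val]; omega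
  have e1 : (rix N 1).val = 1 := by rw [rix_val]; omega
  have e3 : (rix N (i.val + 1)).val = min (i.val + 1) N := rix_val _ _
  have hinv : θ⁻¹ * θ = 1 := inv_mul_cancel₀ hθ
  rw [if_neg (by omega), h1, ru2G_row0 (by omega) θ ψ (rix N 1) (by omega), mul_zero, add_zero,
    add_zero]
  congr 1
  rw [ru2G_mid θ ψ (rix N (i.val + 1)) (rix N 1) (by rw [e1]) (by rw [e1]; omega), ru2G_col0]
  split_ifs <;> first | ring1 | omega | linear_combination hinv

theorem ru2G_entD (hN : 3 ≤ N) (θ : F) (ψ : Fin (N + 1) → F) (i j : Fin (N + 1))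
    (hj2 : 2 ≤ j.val) (hjN : j.val < N) :
    ru2G N θ ψ i j + (if 2 ≤ j.val then ru2G N θ ψ i (rix N (j.val - 1)) else 0)
        + ru2G N θ ψ i (rix N 0) * ψ j
      = ru2G N θ ψ i j
        + (if 1 ≤ i.val ∧ i.val < N then ru2G N θ ψ (rix N (i.val + 1)) j else 0)
        + ((if i.val = N then 1 else 0) + (if i.val = N - 1 then 1 else 0))
          * ru2G N θ ψ (rix N 0) j := by
  have hi := i.2
  have e0 : (rix N 0).val = 0 := by rw [rix_val]; omega
  have e3 : (rix N (i.val + 1)).val = min (i.val + 1) N := rix_val _ _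
  have ej1 : (rix N (j.val - 1)).val = j.val - 1 := by rw [rix_val]; omega
  have hidx : rix N ((rix N (j.val - 1)).val + 1) = j := by
    apply Fin.ext
    show min ((rix N (j.val - 1)).val + 1) N = j.val
    rw [ej1]
    omega
  rw [if_pos hj2, ru2G_mid θ ψ i (rix N (j.val - 1)) (by rw [ej1]; omega) (by rw [ej1]; omega),
    hidx, ru2G_row0 (by omega) θ ψ j (by omega), mul_zero, add_zero, add_assoc]
  congr 1
  rw [ru2G_mid θ ψ (rix N (i.val + 1)) j (by omega) (by omega), ru2G_col0]
  split_ifs <;> first | ring1 | omega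

/-- the conjugating matrix intertwines `a` and `b`. -/
theorem ru2G_intertwine (hN : 3 ≤ N) (θ : F) (hθ : θ ≠ 0) (ψ : Fin (N + 1) → F)
    (h0 : ψ (rix N 0) = 0) (h1 : ψ (rix N 1) = θ) :
    ru2G N θ ψ * (jM N F + vecMulVec (Pi.single (rix N 0) 1) ψ)
      = (jM N F + vecMulVec (jM N F *ᵥ Pi.single (rix N N) 1) (Pi.single (rix N 0) 1))
        * ru2G N θ ψ := by
  have e0 : (rix N 0).val = 0 := by rw [rix_val]; omega
  have e1 : (rix N 1).val = 1 := by rw [rix_val]; omega
  have eN : (rix N N).val = N := by rw [rix_val]; omega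
  have eN1 : (rix N (N - 1)).val = N - 1 := by rw [rix_val]; omega
  have hL : ∀ i j : Fin (N + 1),
      (ru2G N θ ψ * (jM N F + vecMulVec (Pi.single (rix N 0) 1) ψ)) i j
      = ru2G N θ ψ i j + (if 2 ≤ j.val then ru2G N θ ψ i (rix N (j.val - 1)) else 0)
        + ru2G N θ ψ i (rix N 0) * ψ j := by
    intro i j
    rw [mul_add, Matrix.add_apply, mul_jM_apply, mul_vecMulVec, vecMulVec_apply,
      mulVec_single_one]
    rfl
  have hR : ∀ i j : Fin (N + 1),
      ((jM N F + vecMulVec (jM N F *ᵥ Pi.single (rix N N) 1) (Pi.single (rix N 0) 1))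
        * ru2G N θ ψ) i j
      = ru2G N θ ψ i j
        + (if 1 ≤ i.val ∧ i.val < N then ru2G N θ ψ (rix N (i.val + 1)) j else 0)
        + ((if i.val = N then 1 else 0) + (if i.val = N - 1 then 1 else 0))
          * ru2G N θ ψ (rix N 0) j := by
    intro i j
    rw [jM_mulVec_single (by omega) le_rfl, add_mul, Matrix.add_apply, jM_mul_apply,
      vecMulVec_mul, vecMulVec_apply, single_one_vecMul, Pi.add_apply, Pi.single_apply,
      Pi.single_apply]
    simp only [Fin.ext_iff, eN, eN1]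
    rfl
  ext i j
  have hj := j.2
  rw [hL, hR]
  by_cases hj0 : j.val = 0
  · have hj' : j = rix N 0 := Fin.ext (by rw [e0]; exact hj0)
    subst hj'
    exact ru2G_entA hN θ ψ h0 i
  · by_cases hjN : j.val = N
    · have hj' : j = rix N N := Fin.ext (by rw [eN]; exact hjN)
      subst hj'
      exact ru2G_entB hN θ ψ i
    · by_cases hj1 : j.val = 1
      · have hj' : j = rix N 1 := Fin.ext (by rw [e1]; exact hj1)
        subst hj'
        exact ru2G_entC hN θ hθ ψ h1 i
      · exact ru2G_entD hN θ ψ i j (by omega) (by omega)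

theorem ru2G_det (hN : 1 ≤ N) (θ : F) (ψ : Fin (N + 1) → F) :
    (ru2G N θ ψ).det = (-1) ^ N * θ⁻¹ := by
  rw [Matrix.det_succ_row_zero, Finset.sum_eq_single (Fin.last N)]
  · have h1 : ru2G N θ ψ 0 (Fin.last N) = 1 := by
      have hz : ((0 : Fin (N + 1)) : ℕ) = 0 := rfl
      have hl : ((Fin.last N : Fin (N + 1)) : ℕ) = N := rfl
      rw [ru2G_apply]
      split_ifs <;> first | rfl | omega
    have h2 : ((ru2G N θ ψ).submatrix Fin.succ (Fin.last N).succAbove).det = θ⁻¹ := by
      rw [Fin.succAbove_last, Matrix.det_of_isUpperTriangular]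
      · have hdiag : ∀ r : Fin N, (ru2G N θ ψ).submatrix Fin.succ Fin.castSucc r r
            = if r.val = 0 then θ⁻¹ else 1 := by
          intro r
          have hr := r.2
          rw [Matrix.submatrix_apply, ru2G_apply]
          simp only [Fin.val_succ, Fin.val_castSucc]
          split_ifs <;> first | ring1 | omega
        simp only [hdiag]
        obtain ⟨M, rfl⟩ : ∃ M, N = M + 1 := ⟨N - 1, by omega⟩
        rw [Fin.prod_univ_succ]
        simp
      · intro r c hrc
        have hrc' : c.val < r.val := hrc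
        have hr := r.2
        rw [Matrix.submatrix_apply, ru2G_apply]
        simp only [Fin.val_succ, Fin.val_castSucc]
        split_ifs <;> first | ring1 | omega
    rw [h1, h2, Fin.val_last, mul_one]
  · intro j _ hj
    have hj2 : j.val ≠ N := fun h => hj (Fin.ext (by rw [h, Fin.val_last]))
    have : ru2G N θ ψ 0 j = 0 := by
      have hz : ((0 : Fin (N + 1)) : ℕ) = 0 := rfl
      rw [ru2G_apply]
      split_ifs <;> first | ring1 | omega
    rw [this, mul_zero, zero_mul]
  · intro h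
    exact absurd (Finset.mem_univ _) h

/-- regularity is transported by an invertible intertwiner. -/
theorem regular_of_intertwine (A B g : Matrix (Fin (N + 1)) (Fin (N + 1)) F)
    (hg : IsUnit g.det) (h : g * A = B * g) (k : ℕ)
    (hA : IsNilpotent (A - 1) ∧ (A - 1) ^ k ≠ 0) :
    IsNilpotent (B - 1) ∧ (B - 1) ^ k ≠ 0 := by
  have hs : SemiconjBy g (A - 1) (B - 1) := by
    show g * (A - 1) = (B - 1) * g
    rw [mul_sub, sub_mul, h, mul_one, one_mul]
  obtain ⟨⟨n0, hn0⟩, hk⟩ := hA
  refine ⟨⟨n0, ?_⟩, ?_⟩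
  · have h1 : g * (A - 1) ^ n0 = (B - 1) ^ n0 * g := hs.pow_right n0
    rw [hn0, mul_zero] at h1
    calc (B - 1) ^ n0 = (B - 1) ^ n0 * g * g⁻¹ :=
          (Matrix.mul_nonsing_inv_cancel_right (A := g) _ hg).symm
      _ = 0 := by rw [← h1, zero_mul]
  · intro h0
    have h1 : g * (A - 1) ^ k = (B - 1) ^ k * g := hs.pow_right k
    rw [h0, zero_mul] at h1
    apply hk
    calc (A - 1) ^ k = g⁻¹ * (g * (A - 1) ^ k) :=
          (Matrix.nonsing_inv_mul_cancel_left (A := g) _ hg).symm
      _ = 0 := by rw [h1, mul_zero]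

/-- the determinant of a dyadic transvection. -/
theorem dy_det (u φ : Fin (N + 1) → F) (h : φ ⬝ᵥ u = 0) : (1 + vecMulVec u φ).det = 1 := by
  rw [Matrix.vecMulVec_eq Unit, Matrix.det_one_add_replicateCol_mul_replicateRow, h, add_zero]

theorem ru2A_det (hN : 3 ≤ N) (θ κ : F) :
    (jM N F + vecMulVec (Pi.single (rix N 0) 1) (ru2p N θ κ ᵥ* jM N F)).det = 1 := by
  have hd := ru2_data (F := F) hN θ κ
  have e : jM N F + vecMulVec (Pi.single (rix N 0) 1) (ru2p N θ κ ᵥ* jM N F)
      = (1 + vecMulVec (Pi.single (rix N 0) 1) (ru2p N θ κ)) * jM N F := by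
    rw [add_mul, one_mul, vecMulVec_mul]
  rw [e, Matrix.det_mul, dy_det _ _ hd.hp0, jM_det, mul_one]

theorem ru2B_det (hN : 3 ≤ N) :
    (jM N F + vecMulVec (jM N F *ᵥ Pi.single (rix N N) 1) (Pi.single (rix N 0) 1)).det = 1 := by
  have hd := ru2_data (F := F) hN 0 0
  have e : jM N F + vecMulVec (jM N F *ᵥ Pi.single (rix N N) 1) (Pi.single (rix N 0) 1)
      = (1 + vecMulVec (jM N F *ᵥ Pi.single (rix N N) 1) (Pi.single (rix N 0) 1)) * jM N F := by
    rw [add_mul, one_mul, vecMulVec_mul, hd.he0sM]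
  rw [e, Matrix.det_mul, dy_det _ _ hd.h0y, jM_det, mul_one]

/-! ### Finite field lemmas -/

theorem ff_full_gen (w : F) (hw0 : w ≠ 0) (hgen : ∀ a : F, a ≠ 0 → ∃ j : ℕ, a = w ^ j)
    (P : F → Prop) (h0 : P 0) (hadd : ∀ x y, P x → P y → P (x + y))
    (hmul : ∀ x, P x → P ((w - 4) * x)) (hc : ∃ c, c ≠ 0 ∧ P c) : ∀ t, P t := by
  obtain ⟨c, hc0, hc⟩ := hc
  have hw : ∀ x, P x → P (w * x) := by
    intro x hx
    have h1 := hadd _ _ (hmul x hx) (hadd _ _ (hadd _ _ hx hx) (hadd _ _ hx hx))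
    have e : (w - 4) * x + (x + x + (x + x)) = w * x := by ring
    rwa [e] at h1
  have hpow : ∀ j : ℕ, P (w ^ j * c) := by
    intro j
    induction j with
    | zero => rwa [pow_zero, one_mul]
    | succ j ih =>
      have := hw _ ih
      rwa [← mul_assoc, ← pow_succ'] at this
  intro t
  by_cases ht : t = 0
  · rw [ht]
    exact h0
  · obtain ⟨j, hj⟩ := hgen (t * c⁻¹) (mul_ne_zero ht (inv_ne_zero hc0))
    have := hpow j
    rwa [← hj, inv_mul_cancel_right₀ hc0] at this

theorem ff_full_prime [Fintype F] (hp : (Fintype.card F).Prime) (P : F → Prop) (h0 : P 0)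
    (hadd : ∀ x y, P x → P y → P (x + y)) (hc : ∃ c, c ≠ 0 ∧ P c) : ∀ t, P t := by
  obtain ⟨c, hc0, hc⟩ := hc
  have hn : ∀ n : ℕ, P (n • c) := by
    intro n
    induction n with
    | zero => rwa [zero_smul]
    | succ n ih =>
      rw [succ_nsmul]
      exact hadd _ _ ih hc
  intro t
  have : Fact (Fintype.card F).Prime := ⟨hp⟩
  have hm : t ∈ AddSubmonoid.multiples c :=
    mem_multiples_of_prime_card Nat.card_eq_fintype_card hc0
  obtain ⟨n, rfl⟩ := (AddSubmonoid.mem_multiples_iff _ _).1 hm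
  exact hn n

theorem ff_gen_ne_four [Fintype F] (w : F) (hw0 : w ≠ 0)
    (hgen : ∀ a : F, a ≠ 0 → ∃ j : ℕ, a = w ^ j) : w - 4 ≠ 0 := by
  intro h
  have hw : w = 2 * 2 := by linear_combination h
  by_cases h2 : (2 : F) = 0
  · rw [h2, mul_zero] at hw
    exact hw0 hw
  · have hchar : ringChar F ≠ 2 := by
      intro hc
      apply h2
      have := CharP.cast_eq_zero F (ringChar F)
      rw [hc] at this
      exact_mod_cast this
    obtain ⟨a, ha⟩ := FiniteField.exists_nonsquare hchar
    apply ha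
    by_cases ha0 : a = 0
    · rw [ha0]
      exact ⟨0, by ring⟩
    · obtain ⟨j, hj⟩ := hgen a ha0
      refine ⟨2 ^ j, ?_⟩
      rw [hj, hw, mul_pow]

/-- in characteristic 3 and dimension 4, the cube of `b` is an elementary matrix. -/
theorem ru2B_cube (h3 : (3 : F) = 0) :
    (jM 3 F + vecMulVec (jM 3 F *ᵥ Pi.single (rix 3 3) 1) (Pi.single (rix 3 0) 1)) ^ 3
      = Matrix.transvection (rix 3 1) (rix 3 0) 1 := by
  obtain ⟨n, hn⟩ : ∃ n : Matrix (Fin (3 + 1)) (Fin (3 + 1)) F,
      n = jM 3 F + vecMulVec (jM 3 F *ᵥ Pi.single (rix 3 3) 1) (Pi.single (rix 3 0) 1) - 1 :=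
    ⟨_, rfl⟩
  have hB : jM 3 F + vecMulVec (jM 3 F *ᵥ Pi.single (rix 3 3) 1) (Pi.single (rix 3 0) 1)
      = 1 + n := by
    rw [hn]
    abel
  have hexp : (1 + n) ^ 3 = 1 + 3 • n + 3 • (n * n) + n * (n * n) := by
    simp only [pow_succ, pow_zero, one_mul, mul_add, add_mul, mul_one, mul_assoc]
    abel
  have h3' : ∀ X : Matrix (Fin (3 + 1)) (Fin (3 + 1)) F, 3 • X = 0 := by
    intro X
    rw [← Nat.cast_smul_eq_nsmul F, Nat.cast_ofNat, h3, zero_smul]
  have e0 : (rix 3 0).val = 0 := by rw [rix_val]; omega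
  have e1 : (rix 3 1).val = 1 := by rw [rix_val]; omega
  have e2 : (rix 3 (3 - 1)).val = 2 := by rw [rix_val]; omega
  have e3 : (rix 3 3).val = 3 := by rw [rix_val]; omega
  have hent : ∀ a b : Fin (3 + 1), n a b
      = (if 1 ≤ a.val ∧ b.val = a.val + 1 then 1 else 0)
        + (if (a.val = 3 ∨ a.val = 2) ∧ b.val = 0 then 1 else 0) := by
    intro a b
    have ha := a.2
    have hb := b.2
    rw [hn, jM_mulVec_single (by omega) le_rfl, Matrix.sub_apply, Matrix.add_apply, jM_apply,
      vecMulVec_apply, Matrix.one_apply, Pi.add_apply, Pi.single_apply, Pi.single_apply,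
      Pi.single_apply]
    simp only [Fin.ext_iff]
    split_ifs <;> first | ring1 | omega
  have hn3 : n * (n * n) = Matrix.single (rix 3 1) (rix 3 0) 1 := by
    ext a b
    simp only [Matrix.mul_apply, hent, Matrix.single_apply, Fin.ext_iff, e0, e1]
    fin_cases a <;> fin_cases b <;> simp [Fin.sum_univ_succ]
  rw [hB, hexp, h3', h3', hn3, add_zero, add_zero, Matrix.transvection]

/-! ### The main theorems -/

/-- `SL_{N+1}(F)`, `N ≥ 3`, `F` a finite field, is generated by two regular unipotent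
elements. -/
theorem regUnip2_exists [Fintype F] (N : ℕ) (hN : 3 ≤ N) :
    ∃ u v : Matrix.SpecialLinearGroup (Fin (N + 1)) F,
      (IsNilpotent ((u : Matrix (Fin (N + 1)) (Fin (N + 1)) F) - 1) ∧
        ((u : Matrix (Fin (N + 1)) (Fin (N + 1)) F) - 1) ^ N ≠ 0) ∧
      (IsNilpotent ((v : Matrix (Fin (N + 1)) (Fin (N + 1)) F) - 1) ∧
        ((v : Matrix (Fin (N + 1)) (Fin (N + 1)) F) - 1) ^ N ≠ 0) ∧
      Subgroup.closure ({u, v} : Set (Matrix.SpecialLinearGroup (Fin (N + 1)) F)) = ⊤ := by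
  obtain ⟨w, hw0, hgen⟩ := ff_exists_gen (F := F)
  have hθ : w - 4 ≠ 0 := ff_gen_ne_four w hw0 hgen
  have hσ : ru2s N (w - 4) (w - 4) ≠ 0 := by
    have : ru2s N (w - 4) (w - 4) = w := by
      unfold ru2s
      split_ifs <;> ring
    rw [this]
    exact hw0
  obtain ⟨m, hm⟩ : ∃ m : Matrix.SpecialLinearGroup (Fin (N + 1)) F, m.1 = jM N F :=
    ⟨⟨_, jM_det⟩, rfl⟩
  obtain ⟨a, ha⟩ : ∃ a : Matrix.SpecialLinearGroup (Fin (N + 1)) F,
      a.1 = jM N F + vecMulVec (Pi.single (rix N 0) 1) (ru2p N (w - 4) (w - 4) ᵥ* jM N F) :=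
    ⟨⟨_, ru2A_det hN _ _⟩, rfl⟩
  obtain ⟨b, hb⟩ : ∃ b : Matrix.SpecialLinearGroup (Fin (N + 1)) F,
      b.1 = jM N F + vecMulVec (jM N F *ᵥ Pi.single (rix N N) 1) (Pi.single (rix N 0) 1) :=
    ⟨⟨_, ru2B_det hN⟩, rfl⟩
  have hA := ru2A_regular hN (w - 4) hθ _ (ru2psi_0 hN (w - 4) (w - 4))
    (ru2psi_1 hN (w - 4) (w - 4))
  refine ⟨a, b, ?_, ?_, ?_⟩
  · rw [ha]
    exact hA
  · rw [hb]
    refine regular_of_intertwine _ _ (ru2G N (w - 4) (ru2p N (w - 4) (w - 4) ᵥ* jM N F)) ?_
      (ru2G_intertwine hN (w - 4) hθ _ (ru2psi_0 hN (w - 4) (w - 4))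
        (ru2psi_1 hN (w - 4) (w - 4))) N hA
    rw [ru2G_det (by omega)]
    exact isUnit_iff_ne_zero.2
      (mul_ne_zero (pow_ne_zero _ (neg_ne_zero.2 one_ne_zero)) (inv_ne_zero hθ))
  · have haH : a ∈ Subgroup.closure ({a, b} : Set (Matrix.SpecialLinearGroup (Fin (N + 1)) F)) :=
      Subgroup.subset_closure (by simp)
    have hbH : b ∈ Subgroup.closure ({a, b} : Set (Matrix.SpecialLinearGroup (Fin (N + 1)) F)) :=
      Subgroup.subset_closure (by simp)
    have h10 := ru2_tv10 hN (w - 4) (w - 4) hσ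
      (fun P h0 hadd _ hmul hc => ff_full_gen w hw0 hgen P h0 hadd hmul hc) _ a b ha hb haH hbH
    exact ru2_top hN (w - 4) (w - 4) hθ _ m a b hm ha hb haH hbH h10

/-- `SL_{N+1}(F)`, `N ≥ 3`, `F` a prime field, is generated by two conjugate regular unipotent
elements. -/
theorem regUnip2_conj_exists [Fintype F] (hp : (Fintype.card F).Prime) (N : ℕ) (hN : 3 ≤ N) :
    ∃ u g : Matrix.SpecialLinearGroup (Fin (N + 1)) F,
      (IsNilpotent ((u : Matrix (Fin (N + 1)) (Fin (N + 1)) F) - 1) ∧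
        ((u : Matrix (Fin (N + 1)) (Fin (N + 1)) F) - 1) ^ N ≠ 0) ∧
      Subgroup.closure ({u, g * u * g⁻¹} : Set (Matrix.SpecialLinearGroup (Fin (N + 1)) F))
        = ⊤ := by
  obtain ⟨θ, hθd⟩ : ∃ θ : F, θ = (-1) ^ N := ⟨_, rfl⟩
  have hθ : θ ≠ 0 := by
    rw [hθd]
    exact pow_ne_zero _ (neg_ne_zero.2 one_ne_zero)
  obtain ⟨m, hm⟩ : ∃ m : Matrix.SpecialLinearGroup (Fin (N + 1)) F, m.1 = jM N F :=
    ⟨⟨_, jM_det⟩, rfl⟩
  obtain ⟨a, ha⟩ : ∃ a : Matrix.SpecialLinearGroup (Fin (N + 1)) F,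
      a.1 = jM N F + vecMulVec (Pi.single (rix N 0) 1) (ru2p N θ (-3) ᵥ* jM N F) :=
    ⟨⟨_, ru2A_det hN _ _⟩, rfl⟩
  obtain ⟨b, hb⟩ : ∃ b : Matrix.SpecialLinearGroup (Fin (N + 1)) F,
      b.1 = jM N F + vecMulVec (jM N F *ᵥ Pi.single (rix N N) 1) (Pi.single (rix N 0) 1) :=
    ⟨⟨_, ru2B_det hN⟩, rfl⟩
  have hdet : (ru2G N θ (ru2p N θ (-3) ᵥ* jM N F)).det = 1 := by
    rw [ru2G_det (by omega), hθd, mul_inv_cancel₀ (pow_ne_zero _ (neg_ne_zero.2 one_ne_zero))]
  obtain ⟨g, hg⟩ : ∃ g : Matrix.SpecialLinearGroup (Fin (N + 1)) F,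
      g.1 = ru2G N θ (ru2p N θ (-3) ᵥ* jM N F) := ⟨⟨_, hdet⟩, rfl⟩
  have ec : g * a * g⁻¹ = b := by
    apply sl_conj_eq_of
    rw [hg, ha, hb]
    exact ru2G_intertwine hN θ hθ _ (ru2psi_0 hN θ (-3)) (ru2psi_1 hN θ (-3))
  refine ⟨a, g, ?_, ?_⟩
  · rw [ha]
    exact ru2A_regular hN θ hθ _ (ru2psi_0 hN θ (-3)) (ru2psi_1 hN θ (-3))
  · rw [ec]
    have haH : a ∈ Subgroup.closure ({a, b} : Set (Matrix.SpecialLinearGroup (Fin (N + 1)) F)) :=
      Subgroup.subset_closure (by simp)
    have hbH : b ∈ Subgroup.closure ({a, b} : Set (Matrix.SpecialLinearGroup (Fin (N + 1)) F)) :=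
      Subgroup.subset_closure (by simp)
    have h10 : TvFull (Subgroup.closure
        ({a, b} : Set (Matrix.SpecialLinearGroup (Fin (N + 1)) F))) (rix N 1) (rix N 0) := by
      by_cases hσ : ru2s N θ (-3) = 0
      · have hN3 : N = 3 := by
          by_contra hne
          unfold ru2s at hσ
          rw [if_neg hne] at hσ
          have h10' : (1 : F) = 0 := by linear_combination hσ
          exact one_ne_zero h10'
        subst hN3
        have h3 : (3 : F) = 0 := by
          unfold ru2s at hσ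
          rw [if_pos rfl, hθd] at hσ
          linear_combination hσ
        have hb3 : (b ^ 3).1 = Matrix.transvection (rix 3 1) (rix 3 0) 1 := by
          rw [Matrix.SpecialLinearGroup.coe_pow, hb]
          exact ru2B_cube h3
        have ht1 : TvAt (Subgroup.closure
            ({a, b} : Set (Matrix.SpecialLinearGroup (Fin (3 + 1)) F))) (rix 3 1) (rix 3 0) 1 :=
          tvAt_of_mem (b ^ 3) hb3 (pow_mem hbH 3)
        exact ff_full_prime hp
          (fun t => TvAt (Subgroup.closure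
            ({a, b} : Set (Matrix.SpecialLinearGroup (Fin (3 + 1)) F))) (rix 3 1) (rix 3 0) t)
          (TvAt.zero _ _ _) (fun x y hx hy => TvAt.add (rix_ne (by omega)) hx hy)
          ⟨1, one_ne_zero, ht1⟩
      · exact ru2_tv10 hN θ (-3) hσ
          (fun P h0 hadd _ _ hc => ff_full_prime hp P h0 hadd hc) _ a b ha hb haH hbH
    exact ru2_top hN θ (-3) hθ _ m a b hm ha hb haH hbH h10

end regunip2

end Cfsg.Agent.Helper13
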