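import Mathlib
import Cfsg.Agent.Helper13.SpRU3a

/-!
# The `SL_{N+1}` core of the "three conjugate regular unipotents" arguments (helper13)

`slN_core`: abstract version (arbitrary target group `G` and homomorphism `L : SL_{N+1}(F) →* G`) of
the generation argument used for `Sp_{2n}` (S2281) and `SU_{2m+1}` (S2282).
-/

set_option autoImplicit false
set_option maxHeartbeats 400000
set_option linter.unusedSimpArgs false
set_option linter.unusedSectionVars false
set_option linter.unusedVariables false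
set_option linter.unreachableTactic false
set_option linter.unusedTactic false
set_option linter.unnecessarySeqFocus false

namespace Cfsg.Agent.Helper13

open Matrix

section slcore0
variable {F : Type*} [Field F] {n : ℕ}

/-- conjugation rights: if `L A * τ ∈ H` and `τ` commutes with `L X ∈ H`, then
`L (A X A⁻¹) ∈ H`. -/
theorem hom_conj_mem {G : Type*} [Group G] (L : Matrix.SpecialLinearGroup (Fin n) F →* G)
    (H : Subgroup G) (A X : Matrix.SpecialLinearGroup (Fin n) F) (τ : G)
    (hu : L A * τ ∈ H) (hc : L X * τ = τ * L X) (hX : L X ∈ H) :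
    L (A * X * A⁻¹) ∈ H := by
  have h1 : L A * τ * L X * (L A * τ)⁻¹ ∈ H := mul_mem (mul_mem hu hX) (inv_mem hu)
  have e : L A * τ * L X * (L A * τ)⁻¹ = L (A * X * A⁻¹) := by
    rw [map_mul, map_mul, map_inv, mul_assoc (L A) τ, ← hc]
    group
  rwa [e] at h1

/-- variant of `TvAt.conj_split` where only the conjugate is known to lie in `H`. -/
theorem TvAt.conj_split_of {H : Subgroup (Matrix.SpecialLinearGroup (Fin n) F)} {i j k l : Fin n}
    (hij : i ≠ j) (hkl : k ≠ l) {t r : F} (A : Matrix.SpecialLinearGroup (Fin n) F)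
    (hm : A.1 * Matrix.transvection i j t
      = Matrix.transvection i j t * (Matrix.transvection k l r * A.1))
    (h : TvAt H i j t)
    (hA : A * Matrix.SpecialLinearGroup.transvection hij t * A⁻¹ ∈ H) : TvAt H k l r := by
  apply tvAt_of_mem' hkl
  have e : A * Matrix.SpecialLinearGroup.transvection hij t * A⁻¹
      = Matrix.SpecialLinearGroup.transvection hij t
        * Matrix.SpecialLinearGroup.transvection hkl r :=
    sl_conj_eq_of _ _ _ (hm.trans (mul_assoc _ _ _).symm)
  rw [e] at hA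
  have h2 := mul_mem (inv_mem (h.mem hij)) hA
  rwa [inv_mul_cancel_left] at h2

end slcore0

section slcore
variable {F : Type*} [Field F] {N : ℕ}

/-- The generation argument in `SL_{N+1}(F)`, `N ≥ 2`, for an arbitrary homomorphism
`L : SL_{N+1}(F) →* G` and elements `te`, `tf` of `G` commuting with the images of suitable
elementary matrices: the three elements `u₁ = L a * te`, `u₂ = L g * u₁ * (L g)⁻¹` and
`u₃ = L (z * v) * tf` generate a subgroup containing `L (SL)`, `te` and `tf`. -/
theorem slN_core {G : Type*} [Group G] [Fintype F] (hN : 2 ≤ N) (γ : F) (hγ0 : γ ≠ 0)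
    (hgen : ∀ x : F, x ≠ 0 → ∃ j : ℕ, x = γ ^ j)
    (L : Matrix.SpecialLinearGroup (Fin (N + 1)) F →* G)
    (H : Subgroup G)
    (a g v z : Matrix.SpecialLinearGroup (Fin (N + 1)) F)
    (te tf : G)
    (ha1 : a.1 = ruU N F)
    (hg1 : g.1 = Matrix.transvection (rix N 0) (rix N 1) (-1))
    (hv1 : v.1 = ruVb N γ)
    (hz1 : z.1 = Matrix.transvection (rix N N) (rix N 0) (-1))
    (cte : ∀ {i j : Fin (N + 1)} (hij : i ≠ j) (t : F), j ≠ rix N N →
      L (Matrix.SpecialLinearGroup.transvection hij t) * te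
        = te * L (Matrix.SpecialLinearGroup.transvection hij t))
    (ctf : ∀ {i j : Fin (N + 1)} (hij : i ≠ j) (t : F), i ≠ rix N 1 →
      L (Matrix.SpecialLinearGroup.transvection hij t) * tf
        = tf * L (Matrix.SpecialLinearGroup.transvection hij t))
    (hu1 : L a * te ∈ H) (hu2 : L g * (L a * te) * (L g)⁻¹ ∈ H)
    (hu3 : L (z * v) * tf ∈ H) :
    (∀ X : Matrix.SpecialLinearGroup (Fin (N + 1)) F, L X ∈ H) ∧ te ∈ H ∧ tf ∈ H := by
  have h01 : rix N 0 ≠ rix N 1 := rix_ne (by omega)
  have h10 : rix N 1 ≠ rix N 0 := h01.symm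
  have h02 : rix N 0 ≠ rix N 2 := rix_ne (by omega)
  have h0N : rix N 0 ≠ rix N N := rix_ne (by omega)
  have hN0 : rix N N ≠ rix N 0 := h0N.symm
  have h1N : rix N 1 ≠ rix N N := rix_ne (by omega)
  have hN1 : rix N N ≠ rix N 1 := h1N.symm
  obtain ⟨Γ, hΓ⟩ : ∃ Γ : Subgroup (Matrix.SpecialLinearGroup (Fin (N + 1)) F),
      Γ = H.comap L := ⟨_, rfl⟩
  have mem : ∀ X : Matrix.SpecialLinearGroup (Fin (N + 1)) F, X ∈ Γ ↔ L X ∈ H := by
    intro X
    rw [hΓ]
    exact Subgroup.mem_comap
  have hg : g = Matrix.SpecialLinearGroup.transvection h01 (-1) := Subtype.ext hg1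
  have hz : z = Matrix.SpecialLinearGroup.transvection hN0 (-1) := Subtype.ext hz1
  have conjA : ∀ X : Matrix.SpecialLinearGroup (Fin (N + 1)) F, L X * te = te * L X →
      X ∈ Γ → a * X * a⁻¹ ∈ Γ := by
    intro X hc hX
    rw [mem] at hX ⊢
    exact hom_conj_mem L H a X te hu1 hc hX
  -- Step A: `T_{02}(-1) ∈ Γ`
  have hA : TvAt Γ (rix N 0) (rix N 2) (-1) := by
    apply tvAt_of_mem' h02
    rw [mem]
    have e : g * a = Matrix.SpecialLinearGroup.transvection h02 (-1) * a * g :=
      Subtype.ext (by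
        show g.1 * a.1 = Matrix.transvection _ _ _ * a.1 * g.1
        rw [hg1, ha1]
        exact ruU_i1 hN (-1))
    have c1 : Commute (L g) te := by
      rw [hg]
      exact cte h01 (-1) h1N
    have e2 : L g * (L a * te) * (L g)⁻¹ = L (Matrix.SpecialLinearGroup.transvection h02 (-1)) * (L a * te) := by
      calc L g * (L a * te) * (L g)⁻¹ = L g * L a * (te * (L g)⁻¹) := by group
        _ = L g * L a * ((L g)⁻¹ * te) := by rw [c1.inv_left.eq]
        _ = L (g * a * g⁻¹) * te := by rw [map_mul, map_mul, map_inv]; group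
        _ = L (Matrix.SpecialLinearGroup.transvection h02 (-1)) * (L a * te) := by
            rw [e, mul_inv_cancel_right, map_mul, mul_assoc]
    have h3 := mul_mem hu2 (inv_mem hu1)
    rw [e2, mul_inv_cancel_right] at h3
    exact h3
  have hA' : TvAt Γ (rix N 0) (rix N 2) 1 := by
    have := hA.neg h02
    rwa [neg_neg] at this
  -- Step B: `T_{0j}(1) ∈ Γ` for `2 ≤ j ≤ N`
  have hB : ∀ j, 2 ≤ j → j ≤ N → TvAt Γ (rix N 0) (rix N j) 1 := by
    intro j hj
    induction j, hj using Nat.le_induction with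
    | base => intro _; exact hA'
    | succ j hj ih =>
      intro hjN
      have h1 := ih (by omega)
      have h0j : rix N 0 ≠ rix N j := rix_ne (by omega)
      have h0j' : rix N 0 ≠ rix N (j + 1) := rix_ne (by omega)
      have hjNne : rix N j ≠ rix N N := rix_ne (by omega)
      have h2 : TvAt Γ (rix N 0) (rix N (j + 1)) (-1) :=
        TvAt.conj_split_of h0j h0j' a (by rw [ha1]; exact ruU_i2 hj hjN 1) h1
          (conjA _ (cte h0j 1 hjNne) (h1.mem h0j))
      have := h2.neg h0j'
      rwa [neg_neg] at this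
  -- Step C: the braid relation gives `z ∈ Γ`
  have hx : TvAt Γ (rix N 0) (rix N N) 1 := hB N hN le_rfl
  have hx' : TvAt Γ (rix N 0) (rix N N) (-1) := hx.neg h0N
  have cv : v * Matrix.SpecialLinearGroup.transvection h0N (-1) = Matrix.SpecialLinearGroup.transvection h0N (-1) * v :=
    Subtype.ext (by
      show v.1 * Matrix.transvection _ _ _ = Matrix.transvection _ _ _ * v.1
      rw [hv1]
      exact ruVb_i3 hN γ (-1))
  have hzx : z * Matrix.SpecialLinearGroup.transvection h0N (-1) * z⁻¹ ∈ Γ := by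
    rw [mem]
    have h1 := hom_conj_mem L H (z * v) (Matrix.SpecialLinearGroup.transvection h0N (-1)) tf hu3 (ctf h0N (-1) h01)
      ((mem _).1 (hx'.mem h0N))
    have e : z * v * Matrix.SpecialLinearGroup.transvection h0N (-1) * (z * v)⁻¹ = z * Matrix.SpecialLinearGroup.transvection h0N (-1) * z⁻¹ := by
      rw [mul_assoc z v, cv]
      group
    rwa [e] at h1
  have hzH : TvAt Γ (rix N N) (rix N 0) 1 := by
    apply tv_braid_mem h0N (-1) 1 (by ring) hx'
    have e : Matrix.SpecialLinearGroup.transvection h0N.symm (1 : F) = z⁻¹ := by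
      rw [hz, Matrix.SpecialLinearGroup.transvection_inv, neg_neg]
    rw [e, inv_inv]
    exact hzx
  have hzmem : z ∈ Γ := by
    rw [hz]
    exact (hzH.neg hN0).mem hN0
  have hu3' : L v * tf ∈ H := by
    have := mul_mem (inv_mem ((mem z).1 hzmem)) hu3
    rwa [map_mul, mul_assoc, inv_mul_cancel_left] at this
  have conjV : ∀ X : Matrix.SpecialLinearGroup (Fin (N + 1)) F, L X * tf = tf * L X →
      X ∈ Γ → v * X * v⁻¹ ∈ Γ := by
    intro X hc hX
    rw [mem] at hX ⊢
    exact hom_conj_mem L H v X tf hu3' hc hX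
  -- Step D: `T_{j0}(1) ∈ Γ` for `2 ≤ j ≤ N`, and `T_{10}(γ) ∈ Γ`
  have hD : ∀ d j, j + d = N → 2 ≤ j → TvAt Γ (rix N j) (rix N 0) 1 := by
    intro d
    induction d with
    | zero =>
      intro j hj _
      have : j = N := by omega
      rw [this]
      exact hzH
    | succ d ih =>
      intro j hj h2
      have h1 := ih (j + 1) (by omega) (by omega)
      have hj0 : rix N (j + 1) ≠ rix N 0 := rix_ne (by omega)
      have hj0' : rix N j ≠ rix N 0 := rix_ne (by omega)
      have hj1 : rix N (j + 1) ≠ rix N 1 := rix_ne (by omega)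
      have h3 := TvAt.conj_split_of hj0 hj0' v
        (by rw [hv1]; exact ruVb_i4 (by omega) (by omega) γ 1) h1
        (conjV _ (ctf hj0 1 hj1) (h1.mem hj0))
      rw [if_neg (by omega), mul_one] at h3
      have := h3.neg hj0'
      rwa [neg_neg] at this
  have hD1 : TvAt Γ (rix N 1) (rix N 0) γ := by
    have h1 := hD (N - 2) 2 (by omega) le_rfl
    have h20 : rix N (1 + 1) ≠ rix N 0 := rix_ne (by omega)
    have h21 : rix N (1 + 1) ≠ rix N 1 := rix_ne (by omega)
    have h3 := TvAt.conj_split_of h20 h10 v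
      (by rw [hv1]; exact ruVb_i4 le_rfl (by omega) γ 1) h1
      (conjV _ (ctf h20 1 h21) (h1.mem h20))
    rw [if_pos rfl, mul_one] at h3
    have := h3.neg h10
    rwa [neg_neg] at this
  -- the elements `W(ρ) = T_{01}(1) T_{10}(ρ) T_{01}(-1)`
  have hW : ∀ ρ : F, TvAt Γ (rix N 1) (rix N 0) ρ →
      Matrix.SpecialLinearGroup.transvection h01 (1 : F) * Matrix.SpecialLinearGroup.transvection h10 ρ * (Matrix.SpecialLinearGroup.transvection h01 (1 : F))⁻¹ ∈ Γ := by
    intro ρ hρ
    have h1 := conjA _ (cte h10 ρ h0N) (hρ.mem h10)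
    have hc : (Matrix.SpecialLinearGroup.transvection h01 (1 : F))⁻¹ * a * Matrix.SpecialLinearGroup.transvection h10 ρ = Matrix.SpecialLinearGroup.transvection h10 ρ * ((Matrix.SpecialLinearGroup.transvection h01 (1 : F))⁻¹ * a) := by
      rw [Matrix.SpecialLinearGroup.transvection_inv]
      exact Subtype.ext (by
        show Matrix.transvection _ _ _ * a.1 * Matrix.transvection _ _ _
          = Matrix.transvection _ _ _ * (Matrix.transvection _ _ _ * a.1)
        rw [ha1]
        exact ruU_i8 hN ρ)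
    have e : a * Matrix.SpecialLinearGroup.transvection h10 ρ * a⁻¹ = Matrix.SpecialLinearGroup.transvection h01 (1 : F) * Matrix.SpecialLinearGroup.transvection h10 ρ * (Matrix.SpecialLinearGroup.transvection h01 (1 : F))⁻¹ := by
      calc a * Matrix.SpecialLinearGroup.transvection h10 ρ * a⁻¹
          = Matrix.SpecialLinearGroup.transvection h01 (1 : F) * ((Matrix.SpecialLinearGroup.transvection h01 (1 : F))⁻¹ * a * Matrix.SpecialLinearGroup.transvection h10 ρ) * a⁻¹ := by group
        _ = Matrix.SpecialLinearGroup.transvection h01 (1 : F) * (Matrix.SpecialLinearGroup.transvection h10 ρ * ((Matrix.SpecialLinearGroup.transvection h01 (1 : F))⁻¹ * a)) * a⁻¹ := by rw [hc]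
        _ = Matrix.SpecialLinearGroup.transvection h01 (1 : F) * Matrix.SpecialLinearGroup.transvection h10 ρ * (Matrix.SpecialLinearGroup.transvection h01 (1 : F))⁻¹ := by group
    rwa [e] at h1
  have hE2 : ∀ k, 2 ≤ k → k ≤ N → ∀ ρ t : F, TvAt Γ (rix N 1) (rix N 0) ρ →
      TvAt Γ (rix N 0) (rix N k) t → TvAt Γ (rix N 0) (rix N k) (ρ * t) := by
    intro k hk2 hkN ρ t hρ ht
    have h0k : rix N 0 ≠ rix N k := rix_ne (by omega)
    have h1k : rix N 1 ≠ rix N k := rix_ne (by omega)
    have hR : TvAt Γ (rix N 1) (rix N k) (ρ * t) := TvAt.comp h10 h0k h1k hρ ht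
    apply tvAt_of_mem' h0k
    obtain ⟨P, hP⟩ : ∃ P : Matrix.SpecialLinearGroup (Fin (N + 1)) F, P = Matrix.SpecialLinearGroup.transvection h01 (1 : F) :=
      ⟨_, rfl⟩
    obtain ⟨Q, hQ⟩ : ∃ Q : Matrix.SpecialLinearGroup (Fin (N + 1)) F, Q = Matrix.SpecialLinearGroup.transvection h10 ρ := ⟨_, rfl⟩
    obtain ⟨X, hX⟩ : ∃ X : Matrix.SpecialLinearGroup (Fin (N + 1)) F, X = Matrix.SpecialLinearGroup.transvection h0k t := ⟨_, rfl⟩
    obtain ⟨R, hR'⟩ : ∃ R : Matrix.SpecialLinearGroup (Fin (N + 1)) F, R = Matrix.SpecialLinearGroup.transvection h1k (ρ * t) :=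
      ⟨_, rfl⟩
    obtain ⟨X', hX'⟩ : ∃ X' : Matrix.SpecialLinearGroup (Fin (N + 1)) F,
      X' = Matrix.SpecialLinearGroup.transvection h0k (ρ * t) := ⟨_, rfl⟩
    have hWm : P * Q * P⁻¹ ∈ Γ := by
      rw [hP, hQ]
      exact hW ρ hρ
    have hXm : X ∈ Γ := by
      rw [hX]
      exact ht.mem h0k
    have hRm : R ∈ Γ := by
      rw [hR']
      exact hR.mem h1k
    have hPX : P * X = X * P := by
      rw [hP, hX]
      exact Subtype.ext (tv_comm_row h01 h0k 1 t)
    have hQX : Q * X * Q⁻¹ = R * X := by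
      have := Cfsg.Agent.Helper5.transvection_commutator h10 h0k h1k ρ t
      rw [commutatorElement_def, ← hQ, ← hX, ← hR'] at this
      rw [← this]
      group
    have hPR : P * R * P⁻¹ = X' * R := by
      have := Cfsg.Agent.Helper5.transvection_commutator h01 h1k h0k (1 : F) (ρ * t)
      rw [commutatorElement_def, one_mul, ← hP, ← hR', ← hX'] at this
      rw [← this]
      group
    have key : P * Q * P⁻¹ * X * (P * Q * P⁻¹)⁻¹ = X' * R * X := by
      have hPX' : P⁻¹ * X * P = X := by rw [mul_assoc, ← hPX, inv_mul_cancel_left]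
      calc P * Q * P⁻¹ * X * (P * Q * P⁻¹)⁻¹ = P * (Q * (P⁻¹ * X * P) * Q⁻¹) * P⁻¹ := by group
        _ = P * (Q * X * Q⁻¹) * P⁻¹ := by rw [hPX']
        _ = P * (R * X) * P⁻¹ := by rw [hQX]
        _ = (P * R * P⁻¹) * (P * X * P⁻¹) := by group
        _ = X' * R * X := by rw [hPR, hPX, mul_inv_cancel_right]
    have h5 : X' * R * X ∈ Γ := by
      rw [← key]
      exact mul_mem (mul_mem hWm hXm) (inv_mem hWm)
    have h6 := mul_mem (mul_mem h5 (inv_mem hXm)) (inv_mem hRm)
    rw [mul_inv_cancel_right, mul_inv_cancel_right] at h6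
    rw [← hX']
    exact h6
  -- fullness
  have hF0k : ∀ k, 2 ≤ k → k ≤ N → TvFull Γ (rix N 0) (rix N k) := by
    intro k hk2 hkN
    have h0k : rix N 0 ≠ rix N k := rix_ne (by omega)
    apply ff_full_of_sq_closed (fun t => TvAt Γ (rix N 0) (rix N k) t) γ hgen
      (fun a b => TvAt.add h0k) (TvAt.zero _ _ _) 1 one_ne_zero (hB k hk2 hkN)
    intro t ht
    have := hE2 k hk2 hkN γ _ hD1 (hE2 k hk2 hkN γ t hD1 ht)
    have e : γ * (γ * t) = γ ^ 2 * t := by ring
    rwa [e] at this
  have hF0N : TvFull Γ (rix N 0) (rix N N) := hF0k N hN le_rfl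
  have hFjN : ∀ j, 1 ≤ j → j + 1 ≤ N → TvFull Γ (rix N j) (rix N N) := by
    intro j hj1 hjN
    have hj0 : rix N j ≠ rix N 0 := rix_ne (by omega)
    have hjN' : rix N j ≠ rix N N := rix_ne (by omega)
    by_cases h : j = 1
    · subst h
      exact TvFull.comp_right hj0 h0N hjN' hγ0 hD1 hF0N
    · exact TvFull.comp_right hj0 h0N hjN' one_ne_zero (hD (N - j) j (by omega) (by omega)) hF0N
  have hFj0 : ∀ j, 1 ≤ j → j + 1 ≤ N → TvFull Γ (rix N j) (rix N 0) := by
    intro j hj1 hjN
    exact TvFull.comp_left (rix_ne (by omega)) hN0 (rix_ne (by omega)) one_ne_zero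
      (hFjN j hj1 hjN) hzH
  have hF10 : TvFull Γ (rix N 1) (rix N 0) := hFj0 1 le_rfl (by omega)
  have hF01 : TvFull Γ (rix N 0) (rix N 1) := by
    intro t
    have ht : TvAt Γ (rix N 0) (rix N 1) (-(-t)) := by
      apply tvAt_of_mem' h01
      have hWm := hW (-t) (hF10 (-t))
      have hMm : Matrix.SpecialLinearGroup.transvection h10 (-1 : F) ∈ Γ := (hF10 (-1)).mem h10
      have h9 : Matrix.SpecialLinearGroup.transvection h10 (-1 : F) * Matrix.SpecialLinearGroup.transvection h01 (1 : F) * Matrix.SpecialLinearGroup.transvection h10 (-t)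
          = Matrix.SpecialLinearGroup.transvection h01 (-(-t)) * (Matrix.SpecialLinearGroup.transvection h10 (-1 : F) * Matrix.SpecialLinearGroup.transvection h01 (1 : F)) :=
        Subtype.ext (tv_i9 (by omega) (-t))
      have e : Matrix.SpecialLinearGroup.transvection h10 (-1 : F) * (Matrix.SpecialLinearGroup.transvection h01 (1 : F) * Matrix.SpecialLinearGroup.transvection h10 (-t) * (Matrix.SpecialLinearGroup.transvection h01 (1 : F))⁻¹)
          * (Matrix.SpecialLinearGroup.transvection h10 (-1 : F))⁻¹ = Matrix.SpecialLinearGroup.transvection h01 (-(-t)) := by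
        calc Matrix.SpecialLinearGroup.transvection h10 (-1 : F) * (Matrix.SpecialLinearGroup.transvection h01 (1 : F) * Matrix.SpecialLinearGroup.transvection h10 (-t) * (Matrix.SpecialLinearGroup.transvection h01 (1 : F))⁻¹)
              * (Matrix.SpecialLinearGroup.transvection h10 (-1 : F))⁻¹
            = (Matrix.SpecialLinearGroup.transvection h10 (-1 : F) * Matrix.SpecialLinearGroup.transvection h01 (1 : F) * Matrix.SpecialLinearGroup.transvection h10 (-t)) * (Matrix.SpecialLinearGroup.transvection h01 (1 : F))⁻¹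
              * (Matrix.SpecialLinearGroup.transvection h10 (-1 : F))⁻¹ := by group
          _ = Matrix.SpecialLinearGroup.transvection h01 (-(-t)) := by rw [h9]; group
      rw [← e]
      exact mul_mem (mul_mem hMm hWm) (inv_mem hMm)
    rwa [neg_neg] at ht
  have hFN1 : TvFull Γ (rix N N) (rix N 1) :=
    TvFull.comp_right hN0 h01 hN1 one_ne_zero hzH hF01
  have hFN0 : TvFull Γ (rix N N) (rix N 0) := TvFull.comp hN1 h10 hN0 hFN1 hF10
  have hrow : ∀ b : Fin (N + 1), b ≠ rix N 0 → TvFull Γ (rix N 0) b := by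
    intro b hb
    have hb2 := b.2
    have hb0 : b.val ≠ 0 := by
      intro h
      apply hb
      apply Fin.ext
      rw [rix_val, h]
      omega
    rw [← rix_self b]
    by_cases h1 : b.val = 1
    · rw [h1]
      exact hF01
    · exact hF0k b.val (by omega) (by omega)
  have hcol : ∀ a' : Fin (N + 1), a' ≠ rix N 0 → TvFull Γ a' (rix N 0) := by
    intro a' ha'
    have ha2 := a'.2
    have ha0 : a'.val ≠ 0 := by
      intro h
      apply ha'
      apply Fin.ext
      rw [rix_val, h]
      omega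
    rw [← rix_self a']
    by_cases h1 : a'.val = N
    · rw [h1]
      exact hFN0
    · exact hFj0 a'.val (by omega) (by omega)
  have hΓtop : Γ = ⊤ := by
    have : Nontrivial (Fin (N + 1)) := Fin.nontrivial_iff_two_le.2 (by omega)
    apply sl_top_of_tvFull
    intro i j hij
    by_cases hi : i = rix N 0
    · rw [hi]
      exact hrow j (fun h => hij (hi.trans h.symm))
    · by_cases hj : j = rix N 0
      · rw [hj]
        exact hcol i hi
      · exact TvFull.comp hi (Ne.symm hj) hij (hcol i hi) (hrow j hj)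
  have hall : ∀ X : Matrix.SpecialLinearGroup (Fin (N + 1)) F, L X ∈ H := by
    intro X
    rw [← mem, hΓtop]
    exact Subgroup.mem_top X
  refine ⟨hall, ?_, ?_⟩
  · have := mul_mem (inv_mem (hall a)) hu1
    rwa [inv_mul_cancel_left] at this
  · have := mul_mem (inv_mem (hall (z * v))) hu3
    rwa [inv_mul_cancel_left] at this

end slcore

end Cfsg.Agent.Helper13
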