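import Mathlib
import Cfsg.Prelude.Def_ClassicalGeometry

set_option autoImplicit false

namespace Cfsg.Agent.Helper13

open Matrix

section spblocks
variable {F : Type*} [Field F] {m : ℕ}

/-- block criterion for membership of the symplectic group. -/
theorem sp_mem_fromBlocks_iff (A B C D : Matrix (Fin m) (Fin m) F) :
    fromBlocks A B C D ∈ symplecticGroup (Fin m) F ↔
      (B * Aᵀ = A * Bᵀ ∧ A * Dᵀ - B * Cᵀ = 1 ∧ D * Cᵀ = C * Dᵀ) := by
  rw [SymplecticGroup.mem_iff, J, fromBlocks_transpose, fromBlocks_multiply, fromBlocks_multiply,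
    fromBlocks_inj]
  simp only [Matrix.mul_zero, Matrix.mul_one, Matrix.mul_neg, zero_add, add_zero, Matrix.neg_mul]
  constructor
  · rintro ⟨h1, h2, h3, h4⟩
    refine ⟨?_, ?_, ?_⟩
    · have := h1
      rw [← sub_eq_add_neg, sub_eq_zero] at this
      exact this
    · have := congrArg (fun X => -X) h2
      simp only [neg_add, neg_neg] at this
      rw [← this]; abel
    · have := h4
      rw [← sub_eq_add_neg, sub_eq_zero] at this
      exact this
  · rintro ⟨h1, h2, h3⟩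
    refine ⟨?_, ?_, ?_, ?_⟩
    · rw [h1]; abel
    · rw [← h2]; abel
    · have := congrArg Matrix.transpose h2
      simp only [Matrix.transpose_sub, Matrix.transpose_mul, Matrix.transpose_transpose,
        Matrix.transpose_one] at this
      rw [← this]; abel
    · rw [h3]; abel

/-- a symplectic matrix with vanishing lower-left block. -/
theorem sp_upper_blocks (g : symplecticGroup (Fin m) F)
    (h : (g : Matrix (Fin m ⊕ Fin m) (Fin m ⊕ Fin m) F).toBlocks₂₁ = 0) :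
    (g : Matrix (Fin m ⊕ Fin m) (Fin m ⊕ Fin m) F).toBlocks₁₁ *
      ((g : Matrix (Fin m ⊕ Fin m) (Fin m ⊕ Fin m) F).toBlocks₂₂)ᵀ = 1 := by
  have h1 := Matrix.fromBlocks_toBlocks (g : Matrix (Fin m ⊕ Fin m) (Fin m ⊕ Fin m) F)
  have h2 := g.2
  rw [← h1, h, sp_mem_fromBlocks_iff] at h2
  simpa using h2.2.1

/-- a symplectic matrix with vanishing upper-right block. -/
theorem sp_lower_blocks (g : symplecticGroup (Fin m) F)
    (h : (g : Matrix (Fin m ⊕ Fin m) (Fin m ⊕ Fin m) F).toBlocks₁₂ = 0) :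
    (g : Matrix (Fin m ⊕ Fin m) (Fin m ⊕ Fin m) F).toBlocks₁₁ *
      ((g : Matrix (Fin m ⊕ Fin m) (Fin m ⊕ Fin m) F).toBlocks₂₂)ᵀ = 1 := by
  have h1 := Matrix.fromBlocks_toBlocks (g : Matrix (Fin m ⊕ Fin m) (Fin m ⊕ Fin m) F)
  have h2 := g.2
  rw [← h1, h, sp_mem_fromBlocks_iff] at h2
  simpa using h2.2.1

theorem mulVec_inr_eq (M : Matrix (Fin m ⊕ Fin m) (Fin m ⊕ Fin m) F) (v : Fin m ⊕ Fin m → F)
    (i : Fin m) :
    (M *ᵥ v) (Sum.inr i) = (M.toBlocks₂₁ *ᵥ (v ∘ Sum.inl)) i + (M.toBlocks₂₂ *ᵥ (v ∘ Sum.inr)) i := by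
  conv_lhs => rw [← Matrix.fromBlocks_toBlocks M, Matrix.fromBlocks_mulVec]
  rfl

theorem mulVec_inl_eq (M : Matrix (Fin m ⊕ Fin m) (Fin m ⊕ Fin m) F) (v : Fin m ⊕ Fin m → F)
    (i : Fin m) :
    (M *ᵥ v) (Sum.inl i) = (M.toBlocks₁₁ *ᵥ (v ∘ Sum.inl)) i + (M.toBlocks₁₂ *ᵥ (v ∘ Sum.inr)) i := by
  conv_lhs => rw [← Matrix.fromBlocks_toBlocks M, Matrix.fromBlocks_mulVec]
  rfl

/-- the stabiliser in `Sp` of the Lagrangian `⟨e_i⟩`: lower-left block zero. -/
theorem sp_stab_inl_iff (g : symplecticGroup (Fin m) F) :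
    g ∈ stabilizing (spToMat m F) {v : Fin m ⊕ Fin m → F | ∀ i : Fin m, v (Sum.inr i) = 0} ↔
      (g : Matrix (Fin m ⊕ Fin m) (Fin m ⊕ Fin m) F).toBlocks₂₁ = 0 := by
  constructor
  · intro hg
    ext i j
    have h1 : (Pi.single (Sum.inl j) (1 : F) : Fin m ⊕ Fin m → F) ∈
        {v : Fin m ⊕ Fin m → F | ∀ i : Fin m, v (Sum.inr i) = 0} := by
      intro i; simp
    have h2 := (hg _).mp h1 i
    change ((g : Matrix (Fin m ⊕ Fin m) (Fin m ⊕ Fin m) F) *ᵥ Pi.single (Sum.inl j) 1) (Sum.inr i) = 0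
      at h2
    rw [Matrix.mulVec_single_one] at h2
    exact h2
  · intro hC v
    have hAD := sp_upper_blocks g hC
    have hDA : ((g : Matrix (Fin m ⊕ Fin m) (Fin m ⊕ Fin m) F).toBlocks₁₁)ᵀ *
        (g : Matrix (Fin m ⊕ Fin m) (Fin m ⊕ Fin m) F).toBlocks₂₂ = 1 := by
      have := congrArg Matrix.transpose hAD
      rw [Matrix.transpose_mul, Matrix.transpose_transpose, Matrix.transpose_one] at this
      exact _root_.mul_eq_one_comm.mp this
    show (∀ i : Fin m, v (Sum.inr i) = 0) ↔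
      ∀ i : Fin m, ((g : Matrix (Fin m ⊕ Fin m) (Fin m ⊕ Fin m) F) *ᵥ v) (Sum.inr i) = 0
    simp only [mulVec_inr_eq, hC, Matrix.zero_mulVec, Pi.zero_apply, zero_add]
    constructor
    · intro h i
      have : v ∘ Sum.inr = 0 := funext h
      rw [this, Matrix.mulVec_zero]; rfl
    · intro h i
      have h0 : (g : Matrix (Fin m ⊕ Fin m) (Fin m ⊕ Fin m) F).toBlocks₂₂ *ᵥ (v ∘ Sum.inr) = 0 :=
        funext h
      have := congrArg (fun w => ((g : Matrix (Fin m ⊕ Fin m) (Fin m ⊕ Fin m) F).toBlocks₁₁)ᵀ *ᵥ w) h0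
      simp only [Matrix.mulVec_mulVec, hDA, Matrix.one_mulVec, Matrix.mulVec_zero] at this
      exact congrFun this i

/-- the stabiliser in `Sp` of the Lagrangian `⟨f_i⟩`: upper-right block zero. -/
theorem sp_stab_inr_iff (g : symplecticGroup (Fin m) F) :
    g ∈ stabilizing (spToMat m F) {v : Fin m ⊕ Fin m → F | ∀ i : Fin m, v (Sum.inl i) = 0} ↔
      (g : Matrix (Fin m ⊕ Fin m) (Fin m ⊕ Fin m) F).toBlocks₁₂ = 0 := by
  constructor
  · intro hg
    ext i j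
    have h1 : (Pi.single (Sum.inr j) (1 : F) : Fin m ⊕ Fin m → F) ∈
        {v : Fin m ⊕ Fin m → F | ∀ i : Fin m, v (Sum.inl i) = 0} := by
      intro i; simp
    have h2 := (hg _).mp h1 i
    change ((g : Matrix (Fin m ⊕ Fin m) (Fin m ⊕ Fin m) F) *ᵥ Pi.single (Sum.inr j) 1) (Sum.inl i) = 0
      at h2
    rw [Matrix.mulVec_single_one] at h2
    exact h2
  · intro hB v
    have hAD := sp_lower_blocks g hB
    have hDA : ((g : Matrix (Fin m ⊕ Fin m) (Fin m ⊕ Fin m) F).toBlocks₂₂)ᵀ *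
        (g : Matrix (Fin m ⊕ Fin m) (Fin m ⊕ Fin m) F).toBlocks₁₁ = 1 :=
      _root_.mul_eq_one_comm.mp hAD
    show (∀ i : Fin m, v (Sum.inl i) = 0) ↔
      ∀ i : Fin m, ((g : Matrix (Fin m ⊕ Fin m) (Fin m ⊕ Fin m) F) *ᵥ v) (Sum.inl i) = 0
    simp only [mulVec_inl_eq, hB, Matrix.zero_mulVec, Pi.zero_apply, add_zero]
    constructor
    · intro h i
      have : v ∘ Sum.inl = 0 := funext h
      rw [this, Matrix.mulVec_zero]; rfl
    · intro h i
      have h0 : (g : Matrix (Fin m ⊕ Fin m) (Fin m ⊕ Fin m) F).toBlocks₁₁ *ᵥ (v ∘ Sum.inl) = 0 :=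
        funext h
      have := congrArg (fun w => ((g : Matrix (Fin m ⊕ Fin m) (Fin m ⊕ Fin m) F).toBlocks₂₂)ᵀ *ᵥ w) h0
      simp only [Matrix.mulVec_mulVec, hDA, Matrix.one_mulVec, Matrix.mulVec_zero] at this
      exact congrFun this i

end spblocks

end Cfsg.Agent.Helper13
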