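import Mathlib
import Cfsg.Agent.Helper13.SpBlocks
import Cfsg.Agent.Helper13.SympGen

/-!
# Block elements of the symplectic group `Sp_{2n}(F)` (helper13)

Notation for S2281 (generation of `Sp_{2n}(F)` by three conjugate regular unipotent elements):
* `spL X` is the Levi element `diag(X, X⁻ᵀ)` for `X ∈ SL_n(F)` (a group homomorphism);
* `SpUp H S` says that the upper unitriangular block element `[[1, S], [0, 1]]` lies in `H`;
* `SpLo H S` says that the lower unitriangular block element `[[1, 0], [S, 1]]` lies in `H`.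
-/

set_option autoImplicit false
set_option linter.unusedSimpArgs false
set_option linter.unusedSectionVars false
set_option linter.unusedVariables false

namespace Cfsg.Agent.Helper13

open Matrix

section spru
variable {F : Type*} [Field F] {n : ℕ}

theorem spL_mem (X : Matrix.SpecialLinearGroup (Fin n) F) :
    fromBlocks X.1 0 0 ((X⁻¹ : Matrix.SpecialLinearGroup (Fin n) F).1)ᵀ ∈
      Matrix.symplecticGroup (Fin n) F := by
  rw [sp_mem_fromBlocks_iff]
  refine ⟨by simp, ?_, by simp⟩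
  rw [Matrix.transpose_transpose, Matrix.zero_mul, sub_zero]
  have : X.1 * (X⁻¹ : Matrix.SpecialLinearGroup (Fin n) F).1 = ((X * X⁻¹ : Matrix.SpecialLinearGroup (Fin n) F)).1 := rfl
  rw [this, mul_inv_cancel]
  rfl

/-- The Levi embedding `X ↦ diag(X, X⁻ᵀ)` of `SL_n(F)` into `Sp_{2n}(F)`. -/
def spL : Matrix.SpecialLinearGroup (Fin n) F →* Matrix.symplecticGroup (Fin n) F where
  toFun X := ⟨fromBlocks X.1 0 0 ((X⁻¹ : Matrix.SpecialLinearGroup (Fin n) F).1)ᵀ, spL_mem X⟩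
  map_one' := by
    apply Subtype.ext
    show fromBlocks (1 : Matrix.SpecialLinearGroup (Fin n) F).1 0 0
      (((1 : Matrix.SpecialLinearGroup (Fin n) F)⁻¹ : Matrix.SpecialLinearGroup (Fin n) F).1)ᵀ = 1
    rw [inv_one]
    show fromBlocks (1 : Matrix (Fin n) (Fin n) F) 0 0 (1 : Matrix (Fin n) (Fin n) F)ᵀ = 1
    rw [Matrix.transpose_one, Matrix.fromBlocks_one]
  map_mul' X Y := by
    apply Subtype.ext
    show fromBlocks (X * Y).1 0 0 (((X * Y)⁻¹ : Matrix.SpecialLinearGroup (Fin n) F).1)ᵀ =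
      fromBlocks X.1 0 0 ((X⁻¹ : Matrix.SpecialLinearGroup (Fin n) F).1)ᵀ *
        fromBlocks Y.1 0 0 ((Y⁻¹ : Matrix.SpecialLinearGroup (Fin n) F).1)ᵀ
    rw [Matrix.fromBlocks_multiply, _root_.mul_inv_rev]
    simp only [Matrix.mul_zero, Matrix.zero_mul, add_zero, zero_add]
    congr 1
    show ((Y⁻¹ : Matrix.SpecialLinearGroup (Fin n) F).1 * (X⁻¹ : Matrix.SpecialLinearGroup (Fin n) F).1)ᵀ = _
    rw [Matrix.transpose_mul]

theorem spL_val (X : Matrix.SpecialLinearGroup (Fin n) F) :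
    (spL X).1 = fromBlocks X.1 0 0 ((X⁻¹ : Matrix.SpecialLinearGroup (Fin n) F).1)ᵀ := rfl

/-- `[[1, S], [0, 1]]` lies in `H`. -/
def SpUp (H : Subgroup (Matrix.symplecticGroup (Fin n) F)) (S : Matrix (Fin n) (Fin n) F) : Prop :=
  ∀ g : Matrix.symplecticGroup (Fin n) F, g.1 = fromBlocks 1 S 0 1 → g ∈ H

/-- `[[1, 0], [S, 1]]` lies in `H`. -/
def SpLo (H : Subgroup (Matrix.symplecticGroup (Fin n) F)) (S : Matrix (Fin n) (Fin n) F) : Prop :=
  ∀ g : Matrix.symplecticGroup (Fin n) F, g.1 = fromBlocks 1 0 S 1 → g ∈ H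

theorem spUp_mem_sp (S : Matrix (Fin n) (Fin n) F) (hS : Sᵀ = S) :
    fromBlocks 1 S 0 1 ∈ Matrix.symplecticGroup (Fin n) F := by
  rw [sp_mem_fromBlocks_iff]
  refine ⟨by simp [hS], by simp, by simp⟩

theorem spLo_mem_sp (S : Matrix (Fin n) (Fin n) F) (hS : Sᵀ = S) :
    fromBlocks 1 0 S 1 ∈ Matrix.symplecticGroup (Fin n) F := by
  rw [sp_mem_fromBlocks_iff]
  refine ⟨by simp, by simp, by simp [hS]⟩

end spru

end Cfsg.Agent.Helper13
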