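import Mathlib
import Cfsg.Agent.Helper13.SuBlk
import Cfsg.Agent.Helper13.SlCore
import Cfsg.Agent.Helper38.SLTrans

/-!
# Short root elements and the Levi subgroup in `suG hK (2m+1)` (helper13)

`te = suEl hK (bVec v 0 0) (bVec 0 0 a₀) c` and `tf = suEl hK (bVec 0 v 0) (bVec 0 0 a₁) c`: actions,
commutation with Levi elements, and the hypotheses of the generation criterion from
`suLv (SL_m) ≤ H`, `te ∈ H`, `tf ∈ H`.
-/

set_option autoImplicit false
set_option maxHeartbeats 400000
set_option linter.unusedSimpArgs false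
set_option linter.unusedSectionVars false
set_option linter.unusedVariables false
set_option linter.unreachableTactic false
set_option linter.unusedTactic false
set_option linter.unnecessarySeqFocus false

namespace Cfsg.Agent.Helper13

open Matrix
open Cfsg.Agent.Helper5 (frobQ frobQ_apply frobQ_frobQ)
open Cfsg.Agent.Helper99 (suH suG suAct suEl SuHE)

section sucore

variable {K : Type*} [Field K] [Fintype K] {q : ℕ} {m : ℕ}
variable (hK : Fintype.card K = q ^ 2)

theorem suHE_E (v : Fin m → K) (a₀ c : K) (hc : c + frobQ hK c + a₀ * frobQ hK a₀ = 0) :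
    SuHE hK (bVec v 0 0) (bVec 0 0 a₀) c := by
  refine ⟨?_, ?_, ?_⟩
  · rw [suH_bVec]
    simp
  · rw [suH_bVec]
    simp
  · rw [suH_bVec]
    simp only [Pi.zero_apply, map_zero, mul_zero, Finset.sum_const_zero, zero_mul, zero_add]
    exact hc

theorem suHE_F (v : Fin m → K) (a₁ c : K) (hc : c + frobQ hK c + a₁ * frobQ hK a₁ = 0) :
    SuHE hK (bVec 0 v 0) (bVec 0 0 a₁) c := by
  refine ⟨?_, ?_, ?_⟩
  · rw [suH_bVec]
    simp
  · rw [suH_bVec]
    simp
  · rw [suH_bVec]
    simp only [Pi.zero_apply, map_zero, mul_zero, Finset.sum_const_zero, zero_mul, zero_add]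
    exact hc

/-- the action of an upper short root element. -/
theorem suAct_elE (p : ℕ) [Fact p.Prime] [CharP K p] (v : Fin m → K) (a₀ c : K)
    (hc : c + frobQ hK c + a₀ * frobQ hK a₀ = 0) (a b : Fin m → K) (l : K) :
    suAct (suEl hK (bVec v 0 0) (bVec 0 0 a₀) c) (bVec a b l) =
      bVec (a + (c * (∑ i, b i * frobQ hK (v i)) - l * frobQ hK a₀) • v) b
        (l + (∑ i, b i * frobQ hK (v i)) * a₀) := by
  rw [Cfsg.Agent.Helper99.suAct_suEl hK p (suHE_E hK v a₀ c hc), suH_bVec, suH_bVec]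
  simp only [Pi.zero_apply, map_zero, mul_zero, Finset.sum_const_zero, zero_mul, zero_add, add_zero]
  rw [bVec_smul, bVec_smul, bVec_smul, bVec_add, bVec_sub, bVec_add]
  congr 1
  · funext i
    simp only [Pi.add_apply, Pi.sub_apply, Pi.smul_apply, smul_eq_mul, Pi.zero_apply, mul_zero,
      add_zero]
    ring
  · funext i
    simp
  · ring

/-- the action of a lower short root element. -/
theorem suAct_elF (p : ℕ) [Fact p.Prime] [CharP K p] (v : Fin m → K) (a₁ c : K)
    (hc : c + frobQ hK c + a₁ * frobQ hK a₁ = 0) (a b : Fin m → K) (l : K) :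
    suAct (suEl hK (bVec 0 v 0) (bVec 0 0 a₁) c) (bVec a b l) =
      bVec a (b + (c * (∑ i, a i * frobQ hK (v i)) - l * frobQ hK a₁) • v)
        (l + (∑ i, a i * frobQ hK (v i)) * a₁) := by
  rw [Cfsg.Agent.Helper99.suAct_suEl hK p (suHE_F hK v a₁ c hc), suH_bVec, suH_bVec]
  simp only [Pi.zero_apply, map_zero, mul_zero, Finset.sum_const_zero, zero_mul, zero_add, add_zero]
  rw [bVec_smul, bVec_smul, bVec_smul, bVec_add, bVec_sub, bVec_add]
  congr 1
  · funext i
    simp
  · funext i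
    simp only [Pi.add_apply, Pi.sub_apply, Pi.smul_apply, smul_eq_mul, Pi.zero_apply, mul_zero,
      add_zero]
    ring
  · ring

/-- conjugating an upper short root element by a Levi element. -/
theorem suLv_conj_elE (p : ℕ) [Fact p.Prime] [CharP K p] (X : Matrix.SpecialLinearGroup (Fin m) K)
    (v : Fin m → K) (a₀ c : K) (hc : c + frobQ hK c + a₀ * frobQ hK a₀ = 0) :
    suLv hK m X * suEl hK (bVec v 0 0) (bVec 0 0 a₀) c * (suLv hK m X)⁻¹ =
      suEl hK (bVec (X.1 *ᵥ v) 0 0) (bVec 0 0 a₀) c := by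
  rw [Cfsg.Agent.Helper99.suEl_conj hK p _ (suHE_E hK v a₀ c hc), suAct_suLv, suAct_suLv]
  simp only [Matrix.mulVec_zero]

/-- conjugating a lower short root element by a Levi element. -/
theorem suLv_conj_elF (p : ℕ) [Fact p.Prime] [CharP K p] (X : Matrix.SpecialLinearGroup (Fin m) K)
    (v : Fin m → K) (a₁ c : K) (hc : c + frobQ hK c + a₁ * frobQ hK a₁ = 0) :
    suLv hK m X * suEl hK (bVec 0 v 0) (bVec 0 0 a₁) c * (suLv hK m X)⁻¹ =
      suEl hK (bVec 0 (((X⁻¹ : Matrix.SpecialLinearGroup (Fin m) K).1.map (frobQ hK))ᵀ *ᵥ v) 0)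
        (bVec 0 0 a₁) c := by
  rw [Cfsg.Agent.Helper99.suEl_conj hK p _ (suHE_F hK v a₁ c hc), suAct_suLv, suAct_suLv]
  simp only [Matrix.mulVec_zero]

theorem tv_mulVec_single {i j k : Fin m} (hjk : j ≠ k) (t : K) :
    Matrix.transvection i j t *ᵥ (Pi.single k 1 : Fin m → K) = Pi.single k 1 := by
  unfold Matrix.transvection
  rw [Matrix.add_mulVec, Matrix.one_mulVec]
  have : Matrix.single i j t *ᵥ (Pi.single k 1 : Fin m → K) = 0 := by
    funext a
    simp only [Matrix.mulVec, dotProduct, Matrix.single_apply, Pi.single_apply, Pi.zero_apply]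
    apply Finset.sum_eq_zero
    intro x _
    by_cases h1 : i = a ∧ j = x
    · rw [if_pos h1, if_neg (fun e => hjk (h1.2.trans e)), mul_zero]
    · rw [if_neg h1, zero_mul]
  rw [this, add_zero]

theorem tv_map_frob (i j : Fin m) (t : K) :
    (Matrix.transvection i j t).map (frobQ hK) = Matrix.transvection i j (frobQ hK t) := by
  ext a b
  simp only [Matrix.transvection, Matrix.map_apply, Matrix.add_apply, Matrix.one_apply,
    Matrix.single_apply, map_add]
  split_ifs <;> simp

/-- `suLv T_ij(t)` commutes with the upper short root element at `e_k` when `j ≠ k`. -/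
theorem suLv_tv_comm_elE (p : ℕ) [Fact p.Prime] [CharP K p] {i j k : Fin m} (hij : i ≠ j)
    (hjk : j ≠ k) (t a₀ c : K) (hc : c + frobQ hK c + a₀ * frobQ hK a₀ = 0) :
    suLv hK m (Matrix.SpecialLinearGroup.transvection hij t) *
        suEl hK (bVec (Pi.single k 1) 0 0) (bVec 0 0 a₀) c =
      suEl hK (bVec (Pi.single k 1) 0 0) (bVec 0 0 a₀) c *
        suLv hK m (Matrix.SpecialLinearGroup.transvection hij t) := by
  have h := suLv_conj_elE hK p (Matrix.SpecialLinearGroup.transvection hij t) (Pi.single k 1) a₀ c hc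
  have e : (Matrix.SpecialLinearGroup.transvection hij t).1 *ᵥ (Pi.single k 1 : Fin m → K) =
      Pi.single k 1 := tv_mulVec_single hjk t
  rw [e] at h
  exact mul_inv_eq_iff_eq_mul.mp h

/-- `suLv T_ij(t)` commutes with the lower short root element at `f_k` when `i ≠ k`. -/
theorem suLv_tv_comm_elF (p : ℕ) [Fact p.Prime] [CharP K p] {i j k : Fin m} (hij : i ≠ j)
    (hik : i ≠ k) (t a₁ c : K) (hc : c + frobQ hK c + a₁ * frobQ hK a₁ = 0) :
    suLv hK m (Matrix.SpecialLinearGroup.transvection hij t) *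
        suEl hK (bVec 0 (Pi.single k 1) 0) (bVec 0 0 a₁) c =
      suEl hK (bVec 0 (Pi.single k 1) 0) (bVec 0 0 a₁) c *
        suLv hK m (Matrix.SpecialLinearGroup.transvection hij t) := by
  have h := suLv_conj_elF hK p (Matrix.SpecialLinearGroup.transvection hij t) (Pi.single k 1) a₁ c hc
  have e : (((Matrix.SpecialLinearGroup.transvection hij t)⁻¹ :
      Matrix.SpecialLinearGroup (Fin m) K).1.map (frobQ hK))ᵀ
      = Matrix.transvection j i (frobQ hK (-t)) := by
    rw [Matrix.SpecialLinearGroup.transvection_inv]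
    show ((Matrix.transvection i j (-t)).map (frobQ hK))ᵀ = _
    rw [tv_map_frob]
    unfold Matrix.transvection
    rw [Matrix.transpose_add, Matrix.transpose_one, Matrix.transpose_single]
  rw [e, tv_mulVec_single hik] at h
  exact mul_inv_eq_iff_eq_mul.mp h

/-- every `Y ∈ SL_m` is the action on `E'` of some Levi element. -/
theorem suLv_dual_surj (Y : Matrix.SpecialLinearGroup (Fin m) K) :
    ∃ X : Matrix.SpecialLinearGroup (Fin m) K,
      ((X⁻¹ : Matrix.SpecialLinearGroup (Fin m) K).1.map (frobQ hK))ᵀ = Y.1 := by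
  have hd1 : (((Y⁻¹ : Matrix.SpecialLinearGroup (Fin m) K).1.map (frobQ hK))ᵀ).det = 1 := by
    rw [Matrix.det_transpose]
    have h1 : ((Y⁻¹ : Matrix.SpecialLinearGroup (Fin m) K).1.map (frobQ hK)).det =
        frobQ hK ((Y⁻¹ : Matrix.SpecialLinearGroup (Fin m) K).1.det) :=
      (RingHom.map_det (frobQ hK) _).symm
    rw [h1, (Y⁻¹).2, map_one]
  have hd2 : ((Y.1.map (frobQ hK))ᵀ).det = 1 := by
    rw [Matrix.det_transpose]
    have h1 : (Y.1.map (frobQ hK)).det = frobQ hK (Y.1.det) :=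
      (RingHom.map_det (frobQ hK) _).symm
    rw [h1, Y.2, map_one]
  let X : Matrix.SpecialLinearGroup (Fin m) K :=
    ⟨((Y⁻¹ : Matrix.SpecialLinearGroup (Fin m) K).1.map (frobQ hK))ᵀ, hd1⟩
  let Z : Matrix.SpecialLinearGroup (Fin m) K := ⟨(Y.1.map (frobQ hK))ᵀ, hd2⟩
  refine ⟨X, ?_⟩
  have e : X⁻¹ = Z := by
    apply inv_eq_of_mul_eq_one_right
    apply Subtype.ext
    show ((Y⁻¹ : Matrix.SpecialLinearGroup (Fin m) K).1.map (frobQ hK))ᵀ * (Y.1.map (frobQ hK))ᵀ = 1
    rw [← Matrix.transpose_mul, ← Matrix.map_mul]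
    have : Y.1 * (Y⁻¹ : Matrix.SpecialLinearGroup (Fin m) K).1 =
        ((Y * Y⁻¹ : Matrix.SpecialLinearGroup (Fin m) K)).1 := rfl
    rw [this, mul_inv_cancel]
    show ((1 : Matrix (Fin m) (Fin m) K).map (frobQ hK))ᵀ = 1
    rw [Matrix.map_one _ (map_zero _) (map_one _), Matrix.transpose_one]
  rw [e]
  show (((Y.1.map (frobQ hK))ᵀ).map (frobQ hK))ᵀ = Y.1
  rw [Matrix.transpose_map, Matrix.transpose_transpose, frob_map_map]

theorem sl_exists_col (hm : 2 ≤ m) (k : Fin m) (w : Fin m → K) (hw : w ≠ 0) :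
    ∃ X : Matrix.SpecialLinearGroup (Fin m) K, X.1 *ᵥ (Pi.single k 1) = w := by
  classical
  have hcard : Fintype.card Unit < Fintype.card (Fin m) := by
    simp only [Fintype.card_unit, Fintype.card_fin]
    omega
  obtain ⟨X, hX⟩ := Cfsg.Agent.Helper38.exists_sl_map (F := K) (m := Fin m) (ι := Unit)
    (fun _ => (Pi.single k 1 : Fin m → K)) (fun _ => w)
    (LinearIndependent.of_subsingleton () (by
      intro h
      have := congrFun h k
      simp at this))
    (LinearIndependent.of_subsingleton () hw) hcard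
  exact ⟨X, hX ()⟩

/-- the hypothesis `hE` of the generation criterion from the Levi subgroup and an upper short
root element. -/
theorem su_hE_of_levi (p : ℕ) [Fact p.Prime] [CharP K p] (hm : 2 ≤ m) (k : Fin m) (a₀ c : K)
    (ha₀ : a₀ ≠ 0) (hc : c + frobQ hK c + a₀ * frobQ hK a₀ = 0)
    (H : Subgroup ↥(suG hK (2 * m + 1)))
    (hL : ∀ X : Matrix.SpecialLinearGroup (Fin m) K, suLv hK m X ∈ H)
    (hte : suEl hK (bVec (Pi.single k 1) 0 0) (bVec 0 0 a₀) c ∈ H) :
    ∀ a : Fin m → K, ∃ g ∈ H, (∀ a' : Fin m → K, suAct g (bVec a' 0 0) = bVec a' 0 0) ∧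
      suAct g (bVec 0 0 1) = bVec a 0 1 := by
  intro a
  have hf0 : frobQ hK a₀ ≠ 0 := fun h => ha₀ (by
    have := congrArg (frobQ hK) h
    rwa [frobQ_frobQ, map_zero] at this)
  by_cases ha : a = 0
  · refine ⟨1, one_mem H, fun a' => Cfsg.Agent.Helper99.suAct_one _, ?_⟩
    rw [Cfsg.Agent.Helper99.suAct_one, ha]
  · have hv : (-(frobQ hK a₀)⁻¹) • a ≠ 0 := by
      intro h
      apply ha
      rcases smul_eq_zero.1 h with h1 | h1
      · exact absurd h1 (neg_ne_zero.2 (inv_ne_zero hf0))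
      · exact h1
    obtain ⟨X, hX⟩ := sl_exists_col hm k _ hv
    refine ⟨suLv hK m X * suEl hK (bVec (Pi.single k 1) 0 0) (bVec 0 0 a₀) c * (suLv hK m X)⁻¹,
      mul_mem (mul_mem (hL X) hte) (inv_mem (hL X)), ?_, ?_⟩
    · intro a'
      rw [suLv_conj_elE hK p X _ a₀ c hc, suAct_elE hK p _ a₀ c hc]
      simp only [Pi.zero_apply, zero_mul, Finset.sum_const_zero, mul_zero, sub_zero, zero_smul,
        add_zero]
    · rw [suLv_conj_elE hK p X _ a₀ c hc, suAct_elE hK p _ a₀ c hc, hX]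
      simp only [Pi.zero_apply, zero_mul, Finset.sum_const_zero, mul_zero, zero_sub, zero_add,
        add_zero, one_mul]
      congr 1
      funext i
      simp only [Pi.smul_apply, smul_eq_mul]
      field_simp

/-- the hypothesis `hF` of the generation criterion from the Levi subgroup and a lower short
root element. -/
theorem su_hF_of_levi (p : ℕ) [Fact p.Prime] [CharP K p] (hm : 2 ≤ m) (k : Fin m) (a₁ c : K)
    (ha₁ : a₁ ≠ 0) (hc : c + frobQ hK c + a₁ * frobQ hK a₁ = 0)
    (H : Subgroup ↥(suG hK (2 * m + 1)))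
    (hL : ∀ X : Matrix.SpecialLinearGroup (Fin m) K, suLv hK m X ∈ H)
    (htf : suEl hK (bVec 0 (Pi.single k 1) 0) (bVec 0 0 a₁) c ∈ H) :
    ∀ b : Fin m → K, ∃ g ∈ H, (∀ b' : Fin m → K, suAct g (bVec 0 b' 0) = bVec 0 b' 0) ∧
      suAct g (bVec 0 0 1) = bVec 0 b 1 := by
  intro b
  have hf0 : frobQ hK a₁ ≠ 0 := fun h => ha₁ (by
    have := congrArg (frobQ hK) h
    rwa [frobQ_frobQ, map_zero] at this)
  by_cases hb : b = 0
  · refine ⟨1, one_mem H, fun b' => Cfsg.Agent.Helper99.suAct_one _, ?_⟩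
    rw [Cfsg.Agent.Helper99.suAct_one, hb]
  · have hv : (-(frobQ hK a₁)⁻¹) • b ≠ 0 := by
      intro h
      apply hb
      rcases smul_eq_zero.1 h with h1 | h1
      · exact absurd h1 (neg_ne_zero.2 (inv_ne_zero hf0))
      · exact h1
    obtain ⟨Y, hY⟩ := sl_exists_col hm k _ hv
    obtain ⟨X, hX⟩ := suLv_dual_surj hK Y
    refine ⟨suLv hK m X * suEl hK (bVec 0 (Pi.single k 1) 0) (bVec 0 0 a₁) c * (suLv hK m X)⁻¹,
      mul_mem (mul_mem (hL X) htf) (inv_mem (hL X)), ?_, ?_⟩
    · intro b'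
      rw [suLv_conj_elF hK p X _ a₁ c hc, suAct_elF hK p _ a₁ c hc]
      simp only [Pi.zero_apply, zero_mul, Finset.sum_const_zero, mul_zero, sub_zero, zero_smul,
        add_zero]
    · rw [suLv_conj_elF hK p X _ a₁ c hc, suAct_elF hK p _ a₁ c hc, hX, hY]
      simp only [Pi.zero_apply, zero_mul, Finset.sum_const_zero, mul_zero, zero_sub, zero_add,
        add_zero, one_mul]
      congr 1
      funext i
      simp only [Pi.smul_apply, smul_eq_mul]
      field_simp

end sucore

end Cfsg.Agent.Helper13
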