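import Mathlib
import Cfsg.Agent.Helper13.SuCore
import Cfsg.Agent.Helper99.SuRadC
import Cfsg.Agent.Helper91.Su5R
import Cfsg.Agent.Helper91.Su5H

/-!
# `SU_{2m+1}(q)`, `m ≥ 3`, is generated by three conjugate regular unipotents (helper13)

Assembly, in the model `suG hK (2m+1)`: `u₁ = L(a) * te` (`a` the all-ones unitriangular matrix of
`SL_m`, `te` an upper short root element), `u₂ = L(g) u₁ L(g)⁻¹`, `u₃ = h u₁ h⁻¹ = L(z v) * tf`.
The `SL_m` core (`slN_core`) gives `L(SL_m) ≤ H`, `te ∈ H`, `tf ∈ H`; then the radical criterion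
(`Helper99.su_top_of_radicals`) gives `H = ⊤`.
-/

set_option autoImplicit false
set_option maxHeartbeats 400000
set_option linter.unusedSimpArgs false
set_option linter.unusedSectionVars false
set_option linter.unusedVariables false

namespace Cfsg.Agent.Helper13

open Matrix
open Cfsg.Agent.Helper5 (frobQ frobQ_apply frobQ_frobQ)
open Cfsg.Agent.Helper99 (suH suG suAct suEl SuHE)

section suasm

variable {K : Type*} [Field K] [Fintype K] {q : ℕ}

theorem su_three_m3 (hK : Fintype.card K = q ^ 2) (N : ℕ) (hN : 2 ≤ N) :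
    ∃ u g h : ↥(suG hK (2 * (N + 1) + 1)),
      (IsNilpotent (((u : Matrix.SpecialLinearGroup (Fin (2 * (N + 1) + 1)) K) :
          Matrix (Fin (2 * (N + 1) + 1)) (Fin (2 * (N + 1) + 1)) K) - 1) ∧
        (((u : Matrix.SpecialLinearGroup (Fin (2 * (N + 1) + 1)) K) :
          Matrix (Fin (2 * (N + 1) + 1)) (Fin (2 * (N + 1) + 1)) K) - 1) ^ (2 * (N + 1)) ≠ 0) ∧
      Subgroup.closure ({u, g * u * g⁻¹, h * u * h⁻¹} : Set ↥(suG hK (2 * (N + 1) + 1))) = ⊤ := by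
  classical
  obtain ⟨p, hp⟩ := CharP.exists K
  haveI := hp
  haveI : Fact p.Prime := ⟨CharP.char_is_prime K p⟩
  obtain ⟨γ, hγ0, hgen⟩ := ff_exists_gen (F := K)
  obtain ⟨c, hc0⟩ := Cfsg.Agent.Helper99.su_exists_trace hK (1 : K) (map_one _)
  have hc : c + frobQ hK c + (1 : K) * frobQ hK 1 = 0 := by
    rw [map_one, mul_one]
    exact hc0
  have h01 : rix N 0 ≠ rix N 1 := rix_ne (by omega)
  have hN0 : rix N N ≠ rix N 0 := rix_ne (by omega)
  obtain ⟨a, ha⟩ : ∃ a : Matrix.SpecialLinearGroup (Fin (N + 1)) K, a.1 = ruU N K :=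
    ⟨⟨ruU N K, ruU_det⟩, rfl⟩
  obtain ⟨g, hg⟩ : ∃ g : Matrix.SpecialLinearGroup (Fin (N + 1)) K,
      g.1 = Matrix.transvection (rix N 0) (rix N 1) (-1) :=
    ⟨Matrix.SpecialLinearGroup.transvection h01 (-1), rfl⟩
  obtain ⟨z, hz⟩ : ∃ z : Matrix.SpecialLinearGroup (Fin (N + 1)) K,
      z.1 = Matrix.transvection (rix N N) (rix N 0) (-1) :=
    ⟨Matrix.SpecialLinearGroup.transvection hN0 (-1), rfl⟩
  obtain ⟨v, hv⟩ : ∃ v : Matrix.SpecialLinearGroup (Fin (N + 1)) K, v.1 = ruVb N γ :=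
    ⟨⟨ruVb N γ, ruVb_det γ⟩, rfl⟩
  obtain ⟨h, a₁, ha₁, hc₁, hconj⟩ :=
    Cfsg.Agent.Helper91.su_conj_exists hK p N hN γ hγ0 a z v ha hz hv 1 c one_ne_zero hc
  have hreg := Cfsg.Agent.Helper91.su_u1_regular hK p N a ha 1 c one_ne_zero hc
  obtain ⟨te, hte⟩ : ∃ te : ↥(suG hK (2 * (N + 1) + 1)),
      te = suEl hK (bVec (Pi.single (rix N N) 1) 0 0) (bVec 0 0 (1 : K)) c := ⟨_, rfl⟩
  obtain ⟨tf, htf⟩ : ∃ tf : ↥(suG hK (2 * (N + 1) + 1)),
      tf = suEl hK (bVec 0 (Pi.single (rix N 1) 1) 0) (bVec 0 0 a₁) c := ⟨_, rfl⟩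
  rw [← hte] at hreg hconj
  rw [← htf] at hconj
  refine ⟨suLv hK (N + 1) a * te, suLv hK (N + 1) g, h, hreg, ?_⟩
  obtain ⟨H, hH⟩ : ∃ H : Subgroup ↥(suG hK (2 * (N + 1) + 1)),
      H = Subgroup.closure ({suLv hK (N + 1) a * te,
        suLv hK (N + 1) g * (suLv hK (N + 1) a * te) * (suLv hK (N + 1) g)⁻¹,
        h * (suLv hK (N + 1) a * te) * h⁻¹} : Set ↥(suG hK (2 * (N + 1) + 1))) := ⟨_, rfl⟩
  rw [← hH]
  have m1 : suLv hK (N + 1) a * te ∈ H := by
    rw [hH]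
    exact Subgroup.subset_closure (Set.mem_insert _ _)
  have m2 : suLv hK (N + 1) g * (suLv hK (N + 1) a * te) * (suLv hK (N + 1) g)⁻¹ ∈ H := by
    rw [hH]
    exact Subgroup.subset_closure (Set.mem_insert_of_mem _ (Set.mem_insert _ _))
  have m3 : suLv hK (N + 1) (z * v) * tf ∈ H := by
    rw [← hconj, hH]
    exact Subgroup.subset_closure
      (Set.mem_insert_of_mem _ (Set.mem_insert_of_mem _ (Set.mem_singleton _)))
  obtain ⟨hL, hteH, htfH⟩ := slN_core hN γ hγ0 hgen (suLv hK (N + 1)) H a g v z te tf ha hg hv hz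
    (fun {i j} hij t hj => by
      rw [hte]
      exact suLv_tv_comm_elE hK p hij hj t 1 c hc)
    (fun {i j} hij t hi => by
      rw [htf]
      exact suLv_tv_comm_elF hK p hij hi t a₁ c hc₁) m1 m2 m3
  rw [hte] at hteH
  rw [htf] at htfH
  exact Cfsg.Agent.Helper99.su_top_of_radicals hK p (N + 1) (by omega) (by omega) H
    (su_hE_of_levi hK p (by omega) _ 1 c one_ne_zero hc H hL hteH)
    (su_hF_of_levi hK p (by omega) _ a₁ c ha₁ hc₁ H hL htfH)

end suasm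

end Cfsg.Agent.Helper13
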